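import Cfsg.Agent.H190.Chev

/-!
# Fusion-respecting embeddings of `ℓ`-groups of an alternating group in the monomial subgroup (helper186)

`FusEmb D K r P`: an embedding `s` of the subgroup `P` of `A_r` in the monomial subgroup `N` of `D.group K`, such
that the fusion of `P` in `A_r` is realised in `D.group K`.
-/

set_option autoImplicit false

namespace Cfsg.Agent.H186

open Cfsg.Lie Cfsg.Agent.H190

universe u

/-- an embedding of `P ≤ A_r` in the monomial subgroup of `D.group K`, respecting the fusion of `A_r` -/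
structure FusEmb (D : ChevalleyDatum) (K : Type u) [Field K] (r : ℕ)
    (P : Subgroup ↥(alternatingGroup (Fin r))) where
  s : ↥P →* ↥(D.group K)
  inj : Function.Injective s
  mem : ∀ q, s q ∈ NG D K
  fus : ∀ (a : ↥(alternatingGroup (Fin r))) (Q : Subgroup ↥(alternatingGroup (Fin r))) (hQ : Q ≤ P)
    (hQ' : ∀ q ∈ Q, a * q * a⁻¹ ∈ P),
    ∃ h : ↥(D.group K), ∀ q (hq : q ∈ Q), h * s ⟨q, hQ hq⟩ * h⁻¹ = s ⟨a * q * a⁻¹, hQ' q hq⟩

end Cfsg.Agent.H186
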