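import Cfsg.Agent.H186.ExcTorus
import Cfsg.Agent.H186.FusEmb
import Cfsg.Agent.H191.DiagCount

/-!
# Elementary abelian groups generated by disjoint `ℓ`-cycles, and counts of torus elements (helper186)

* `tau k ℓ : Multiplicative (Fin k → ZMod ℓ) →* A_{kℓ}` ;
* `tau_conj` : two elements which are conjugate by a block-monomial permutation are conjugate in the alternating group;
* `ent_count` : conjugate torus elements have the same numbers of entries;
* `inversion` : the double counting formula for the multiplicity of a weight.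
-/

set_option autoImplicit false

namespace Cfsg.Agent.H186

open Cfsg.Lie Cfsg.Agent.ChevalleyStructure Cfsg.Agent.ChevalleyStructure.Elts
  Cfsg.Agent.ChevalleyStructure.NPerm Cfsg.Agent.H190 Equiv

universe u

/-! ### conjugation in the alternating group -/

theorem isConj_alt {n : ℕ} {a b : ↥(alternatingGroup (Fin n))} {ρ κ : Perm (Fin n)}
    (hρ : ρ * (a : Perm (Fin n)) * ρ⁻¹ = b) (hκ : κ * (a : Perm (Fin n)) = (a : Perm (Fin n)) * κ)
    (hs : Perm.sign κ = -1) : ∃ g : ↥(alternatingGroup (Fin n)), g * a * g⁻¹ = b := by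
  rcases Int.units_eq_one_or (Perm.sign ρ) with h | h
  · exact ⟨⟨ρ, Perm.mem_alternatingGroup.2 h⟩, Subtype.ext hρ⟩
  · refine ⟨⟨ρ * κ, Perm.mem_alternatingGroup.2 ?_⟩, Subtype.ext ?_⟩
    · rw [map_mul, h, hs]; rfl
    · show ρ * κ * (a : Perm (Fin n)) * (ρ * κ)⁻¹ = b
      rw [← hρ, mul_inv_rev, mul_assoc ρ κ, hκ]
      group

/-! ### block permutations -/

section Block

variable (k ℓ : ℕ) [NeZero ℓ]

/-- translation by `v b` on the block `b` -/
def trn (v : Fin k → ZMod ℓ) : Perm (Fin k × ZMod ℓ) where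
  toFun p := (p.1, p.2 + v p.1)
  invFun p := (p.1, p.2 - v p.1)
  left_inv p := by simp
  right_inv p := by simp

/-- scaling by units on the blocks -/
def scl (c : Fin k → (ZMod ℓ)ˣ) : Perm (Fin k × ZMod ℓ) where
  toFun p := (p.1, c p.1 * p.2)
  invFun p := (p.1, ((c p.1)⁻¹ : (ZMod ℓ)ˣ) * p.2)
  left_inv p := by simp
  right_inv p := by simp

/-- permutation of the blocks -/
def blk (π : Perm (Fin k)) : Perm (Fin k × ZMod ℓ) := Equiv.prodCongr π (Equiv.refl _)

variable {k ℓ}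

theorem trn_mul (v w : Fin k → ZMod ℓ) : trn k ℓ (v + w) = trn k ℓ v * trn k ℓ w := by
  ext p
  · rfl
  · show p.2 + (v + w) p.1 = p.2 + w p.1 + v p.1
    rw [Pi.add_apply]; ring

theorem trn_zero : trn k ℓ 0 = 1 := by
  ext p
  · rfl
  · show p.2 + (0 : Fin k → ZMod ℓ) p.1 = p.2
    rw [Pi.zero_apply, add_zero]

theorem scl_conj (c : Fin k → (ZMod ℓ)ˣ) (v : Fin k → ZMod ℓ) :
    scl k ℓ c * trn k ℓ v * (scl k ℓ c)⁻¹ = trn k ℓ (fun b => c b * v b) := by
  rw [mul_inv_eq_iff_eq_mul]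
  ext p
  · rfl
  · show (c p.1 : ZMod ℓ) * (p.2 + v p.1) = c p.1 * p.2 + c p.1 * v p.1
    ring

theorem blk_conj (π : Perm (Fin k)) (v : Fin k → ZMod ℓ) :
    blk k ℓ π * trn k ℓ v * (blk k ℓ π)⁻¹ = trn k ℓ (fun b => v (π.symm b)) := by
  rw [mul_inv_eq_iff_eq_mul]
  ext p
  · rfl
  · show p.2 + v p.1 = p.2 + v (π.symm (π p.1))
    rw [Equiv.symm_apply_apply]

/-- the identification of the points -/
def ptE (k ℓ : ℕ) [NeZero ℓ] : Fin k × ZMod ℓ ≃ Fin (k * ℓ) :=
  (Equiv.prodCongr (Equiv.refl _) (ZMod.finEquiv ℓ).symm.toEquiv).trans finProdFinEquiv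

/-- the permutation of `Fin (k ℓ)` -/
def onF (k ℓ : ℕ) [NeZero ℓ] : Perm (Fin k × ZMod ℓ) ≃* Perm (Fin (k * ℓ)) := (ptE k ℓ).permCongrHom

theorem sign_onF (k ℓ : ℕ) [NeZero ℓ] (f : Perm (Fin k × ZMod ℓ)) : Perm.sign (onF k ℓ f) = Perm.sign f :=
  Perm.sign_permCongr (ptE k ℓ) f

theorem sign_trn (hodd : Odd ℓ) (v : Fin k → ZMod ℓ) : Perm.sign (trn k ℓ v) = 1 := by
  have h1 : ∀ m : ℕ, trn k ℓ v ^ m = trn k ℓ (m • v) := by
    intro m
    induction m with
    | zero => rw [pow_zero, zero_smul, trn_zero]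
    | succ m ih => rw [pow_succ, ih, succ_nsmul, trn_mul]
  have h2 : trn k ℓ v ^ ℓ = 1 := by
    rw [h1, ← trn_zero]
    congr 1
    funext b
    rw [Pi.smul_apply, Pi.zero_apply, nsmul_eq_mul, ZMod.natCast_self, zero_mul]
  have h3 : Perm.sign (trn k ℓ v) ^ ℓ = 1 := by rw [← map_pow, h2, map_one]
  rcases Int.units_eq_one_or (Perm.sign (trn k ℓ v)) with h | h
  · exact h
  · rw [h, hodd.neg_one_pow] at h3
    exact absurd h3 (by decide)

/-- the elementary abelian group generated by disjoint cycles -/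
def tau (k ℓ : ℕ) [NeZero ℓ] (hodd : Odd ℓ) : Multiplicative (Fin k → ZMod ℓ) →* ↥(alternatingGroup (Fin (k * ℓ))) :=
  MonoidHom.codRestrict
    { toFun := fun v => onF k ℓ (trn k ℓ v.toAdd)
      map_one' := by
        show onF k ℓ (trn k ℓ 0) = 1
        rw [trn_zero, map_one]
      map_mul' := fun v w => by
        show onF k ℓ (trn k ℓ (v.toAdd + w.toAdd)) = _
        rw [trn_mul, map_mul] } _
    (fun v => by
      show onF k ℓ (trn k ℓ v.toAdd) ∈ alternatingGroup _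
      rw [Perm.mem_alternatingGroup, sign_onF, sign_trn hodd])

theorem tau_coe (hodd : Odd ℓ) (v : Multiplicative (Fin k → ZMod ℓ)) :
    ((tau k ℓ hodd v : ↥(alternatingGroup (Fin (k * ℓ)))) : Perm (Fin (k * ℓ))) = onF k ℓ (trn k ℓ v.toAdd) := rfl

theorem tau_injective (hodd : Odd ℓ) : Function.Injective (tau k ℓ hodd) := by
  intro v w h
  have h1 : onF k ℓ (trn k ℓ v.toAdd) = onF k ℓ (trn k ℓ w.toAdd) := congrArg Subtype.val h
  have h2 := (onF k ℓ).injective h1
  apply Multiplicative.toAdd.injective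
  funext b
  have h3 := congrArg Prod.snd (Equiv.congr_fun h2 (b, 0))
  change 0 + v.toAdd b = 0 + w.toAdd b at h3
  rwa [zero_add, zero_add] at h3

/-- the block permutation of the first two blocks composed with a scaling commutes with the translation -/
theorem exists_odd (hk : 2 ≤ k) [hl : Fact ℓ.Prime] (hs : Perm.sign (blk k ℓ (Equiv.swap ⟨0, by omega⟩ ⟨1, by omega⟩)) = -1)
    (v : Fin k → ZMod ℓ) : ∃ κ : Perm (Fin k × ZMod ℓ), κ * trn k ℓ v = trn k ℓ v * κ ∧ Perm.sign κ = -1 := by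
  classical
  by_cases h0 : ∃ b, v b = 0
  · obtain ⟨b, hb⟩ := h0
    refine ⟨Equiv.swap (b, 0) (b, 1), ?_, ?_⟩
    · have h1 : trn k ℓ v (b, 0) = (b, 0) := by
        show (b, 0 + v b) = (b, 0)
        rw [hb, add_zero]
      have h2 : trn k ℓ v (b, 1) = (b, 1) := by
        show (b, 1 + v b) = (b, 1)
        rw [hb, add_zero]
      have h3 := Equiv.mul_swap_eq_swap_mul (trn k ℓ v) (b, 0) (b, 1)
      rw [h1, h2] at h3
      exact h3.symm
    · rw [Perm.sign_swap]
      intro h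
      have := congrArg Prod.snd h
      exact zero_ne_one this
  · push Not at h0
    set i0 : Fin k := ⟨0, by omega⟩ with hi0
    set i1 : Fin k := ⟨1, by omega⟩ with hi1
    have hne : i0 ≠ i1 := by
      intro h
      have := congrArg Fin.val h
      simp [hi0, hi1] at this
    -- scaling making the first two coordinates equal
    let c : Fin k → (ZMod ℓ)ˣ := fun b => (Units.mk0 (v b) (h0 b))⁻¹
    let s := scl k ℓ c
    let β := blk k ℓ (Equiv.swap i0 i1)
    refine ⟨s⁻¹ * β * s, ?_, ?_⟩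
    · have h1 : s * trn k ℓ v * s⁻¹ = trn k ℓ (fun _ => 1) := by
        rw [scl_conj]
        congr 1
        funext b
        show ((Units.mk0 (v b) (h0 b))⁻¹ : (ZMod ℓ)ˣ).val * v b = 1
        rw [Units.val_inv_eq_inv_val, Units.val_mk0, inv_mul_cancel₀ (h0 b)]
      have h2 : β * trn k ℓ (fun _ => 1) * β⁻¹ = trn k ℓ (fun _ => 1) := blk_conj _ _
      have h3 : trn k ℓ v = s⁻¹ * trn k ℓ (fun _ => 1) * s := by rw [← h1]; group
      have h4 : β * trn k ℓ (fun _ => 1) = trn k ℓ (fun _ => 1) * β := mul_inv_eq_iff_eq_mul.1 h2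
      calc s⁻¹ * β * s * trn k ℓ v = s⁻¹ * (β * trn k ℓ (fun _ => 1)) * s := by rw [h3]; group
        _ = trn k ℓ v * (s⁻¹ * β * s) := by rw [h4, h3]; group
    · rw [map_mul, map_mul, map_inv]
      have : Perm.sign β = -1 := hs
      rw [this]
      rcases Int.units_eq_one_or (Perm.sign s) with h | h <;> rw [h] <;> rfl

/-- elements conjugate by a permutation of the points are conjugate in the alternating group -/
theorem tau_conj (hodd : Odd ℓ) (hk : 2 ≤ k) [hl : Fact ℓ.Prime]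
    (hs : Perm.sign (blk k ℓ (Equiv.swap ⟨0, by omega⟩ ⟨1, by omega⟩)) = -1) {v w : Fin k → ZMod ℓ}
    {ρ : Perm (Fin k × ZMod ℓ)} (h : ρ * trn k ℓ v * ρ⁻¹ = trn k ℓ w) :
    ∃ g, g * tau k ℓ hodd (Multiplicative.ofAdd v) * g⁻¹ = tau k ℓ hodd (Multiplicative.ofAdd w) := by
  obtain ⟨κ, hκ, hκs⟩ := exists_odd hk hs v
  refine isConj_alt (ρ := onF k ℓ ρ) (κ := onF k ℓ κ) ?_ ?_ ?_
  · rw [tau_coe, tau_coe, ← map_mul, ← map_inv, ← map_mul]
    exact congrArg _ h
  · rw [tau_coe, ← map_mul, ← map_mul]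
    exact congrArg _ hκ
  · rw [sign_onF, hκs]

/-- same zero pattern: conjugate -/
theorem exists_scl [hl : Fact ℓ.Prime] {v w : Fin k → ZMod ℓ} (h : ∀ b, v b = 0 ↔ w b = 0) :
    ∃ ρ : Perm (Fin k × ZMod ℓ), ρ * trn k ℓ v * ρ⁻¹ = trn k ℓ w := by
  classical
  refine ⟨scl k ℓ (fun b => if hb : v b = 0 then 1 else Units.mk0 (w b / v b) (div_ne_zero (fun h' => hb ((h b).2 h')) hb)), ?_⟩
  rw [scl_conj]
  congr 1
  funext b
  by_cases hb : v b = 0
  · rw [dif_pos hb, hb, mul_zero, (h b).1 hb]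
  · rw [dif_neg hb, Units.val_mk0, div_mul_cancel₀ _ hb]

end Block

theorem sign_blk27 : Perm.sign (blk 2 7 (Equiv.swap ⟨0, by omega⟩ ⟨1, by omega⟩)) = -1 := by
  decide +kernel

theorem sign_blk35 : Perm.sign (blk 3 5 (Equiv.swap ⟨0, by omega⟩ ⟨1, by omega⟩)) = -1 := by
  decide +kernel

end Cfsg.Agent.H186
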