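import Cfsg.Agent.H186.ExcBlock
import Cfsg.Agent.H186.ExcHist

/-!
# Counting the roots by their values on an elementary abelian `ℓ`-group in the torus (helper186)
-/

set_option autoImplicit false

namespace Cfsg.Agent.H186

open Cfsg.Lie Cfsg.Agent.ChevalleyStructure Cfsg.Agent.ChevalleyStructure.Elts
  Cfsg.Agent.ChevalleyStructure.RootCombGood Cfsg.Agent.ChevalleyStructure.RootWord
  Cfsg.Agent.ChevalleyStructure.RootComb Cfsg.Agent.ChevalleyStructure.NPerm Cfsg.Agent.H190 Equiv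

universe u

/-! ### conjugate torus elements -/

theorem ent_count {D : ChevalleyDatum} (hD : InList D) {F : Type u} [Field F] [DecidableEq F] {t t' : GL D.Idx F}
    (ht : t ∈ D.diagonalSubgroup F) (ht' : t' ∈ D.diagonalSubgroup F) {g : GL D.Idx F} (h : g * t * g⁻¹ = t') (z : F) :
    (Finset.univ.filter fun r : Fin D.nroots => ent t r = z).card =
      (Finset.univ.filter fun r : Fin D.nroots => ent t' r = z).card := by
  obtain ⟨χ, -, h1⟩ := HDiag.exists_dmat D hD t ht
  obtain ⟨χ', -, h2⟩ := HDiag.exists_dmat D hD t' ht'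
  have h3 := Cfsg.Agent.H191.DiagCount.count_eq_of_conj (h1.trans (HDiag.dmat_def D F χ))
    (h2.trans (HDiag.dmat_def D F χ')) h z
  have h4 : ∀ ψ : Fin D.nroots → F, (Finset.univ.filter fun i : D.Idx => Sum.elim (fun _ => (1 : F)) ψ i = z).card =
      (Finset.univ.filter fun _ : Fin D.rank => (1 : F) = z).card +
        (Finset.univ.filter fun r : Fin D.nroots => ψ r = z).card := by
    intro ψ
    rw [Finset.card_filter, Finset.card_filter, Finset.card_filter]
    exact Fintype.sum_sum_type _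
  rw [h4, h4] at h3
  have h5 : ∀ r, ent t r = χ r := ent_of_dmat h1
  have h6 : ∀ r, ent t' r = χ' r := ent_of_dmat h2
  simp_rw [h5, h6]
  omega

/-! ### embeddings of block groups -/

/-- an embedding of `(ℤ/ℓ)^k` in the monomial group, respecting the fusion by permutations of the points -/
structure BlockEmb (D : ChevalleyDatum) (K : Type u) [Field K] (k ℓ : ℕ) [NeZero ℓ] where
  σ : Multiplicative (Fin k → ZMod ℓ) →* GL D.Idx K
  inj : Function.Injective σ
  mem : ∀ v, σ v ∈ D.monomialSubgroup K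
  conj : ∀ (v w : Fin k → ZMod ℓ) (ρ : Perm (Fin k × ZMod ℓ)), ρ * trn k ℓ v * ρ⁻¹ = trn k ℓ w →
    ∃ g : GL D.Idx K, g * σ (Multiplicative.ofAdd v) * g⁻¹ = σ (Multiplicative.ofAdd w)

theorem exists_blockEmb {D : ChevalleyDatum} {K : Type u} [Field K] {k ℓ : ℕ} [NeZero ℓ] [hl : Fact ℓ.Prime]
    (hodd : Odd ℓ) (hk : 2 ≤ k) (hs : Perm.sign (blk k ℓ (Equiv.swap ⟨0, by omega⟩ ⟨1, by omega⟩)) = -1)
    (fe : FusEmb D K (k * ℓ) (tau k ℓ hodd).range) : Nonempty (BlockEmb D K k ℓ) := by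
  let σ : Multiplicative (Fin k → ZMod ℓ) →* GL D.Idx K :=
    (D.group K).subtype.comp (fe.s.comp (tau k ℓ hodd).rangeRestrict)
  have hσ : ∀ v, σ v = ((fe.s ⟨tau k ℓ hodd v, ⟨v, rfl⟩⟩ : ↥(D.group K)) : GL D.Idx K) := fun _ => rfl
  refine ⟨⟨σ, ?_, ?_, ?_⟩⟩
  · intro v w h
    rw [hσ, hσ] at h
    have h1 := fe.inj (Subtype.ext h)
    exact tau_injective hodd (congrArg Subtype.val h1)
  · intro v
    exact fe.mem _
  · intro v w ρ h
    obtain ⟨a, ha⟩ := tau_conj hodd hk hs h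
    obtain ⟨g, hg⟩ := fe.fus a (Subgroup.zpowers (tau k ℓ hodd (Multiplicative.ofAdd v)))
      (by rw [Subgroup.zpowers_le]; exact ⟨_, rfl⟩)
      (by
        intro q hq
        obtain ⟨m, rfl⟩ := Subgroup.mem_zpowers_iff.1 hq
        rw [← conj_zpow, ha]
        exact Subgroup.zpow_mem _ (MonoidHom.mem_range.2 ⟨_, rfl⟩) m)
    refine ⟨g, ?_⟩
    have h2 := hg _ (Subgroup.mem_zpowers _)
    rw [hσ, hσ]
    have h3 := congrArg (fun z : ↥(D.group K) => (z : GL D.Idx K)) h2
    refine h3.trans ?_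
    congr 3

/-! ### double counting -/

theorem card_dot_eq_zero {m ℓ : ℕ} [NeZero ℓ] [hl : Fact ℓ.Prime] {δ : Fin m → ZMod ℓ} (hδ : δ ≠ 0) :
    ℓ * (Finset.univ.filter fun v : Fin m → ZMod ℓ => v ⬝ᵥ δ = 0).card = ℓ ^ m := by
  classical
  let f : (Fin m → ZMod ℓ) →+ ZMod ℓ := AddMonoidHom.mk' (fun v => v ⬝ᵥ δ) (fun v w => add_dotProduct v w δ)
  have hsurj : Function.Surjective f := by
    intro a
    obtain ⟨b, hb⟩ := Function.ne_iff.1 hδ
    refine ⟨Pi.single b (a / δ b), ?_⟩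
    show Pi.single b (a / δ b) ⬝ᵥ δ = a
    rw [single_dotProduct, div_mul_cancel₀ _ hb]
  have h1 := AddSubgroup.card_mul_index f.ker
  rw [AddSubgroup.index_ker, AddMonoidHom.range_eq_top.2 hsurj, AddSubgroup.card_top] at h1
  have h2 : Nat.card f.ker = (Finset.univ.filter fun v : Fin m → ZMod ℓ => v ⬝ᵥ δ = 0).card := by
    rw [← Fintype.card_subtype, ← Nat.card_eq_fintype_card]
    rfl
  rw [h2] at h1
  rw [mul_comm]
  rw [Nat.card_eq_fintype_card (α := ZMod ℓ), ZMod.card] at h1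
  rw [h1, Nat.card_eq_fintype_card, Fintype.card_fun, ZMod.card, Fintype.card_fin]

/-- the multiplicity of a weight from the numbers of roots with given values at the elements -/
theorem inversion {ι : Type*} [Fintype ι] {m ℓ : ℕ} [NeZero ℓ] [hl : Fact ℓ.Prime] (lam : ι → Fin m → ZMod ℓ)
    (l0 : Fin m → ZMod ℓ) :
    ℓ * ∑ v : Fin m → ZMod ℓ, (Finset.univ.filter fun r => v ⬝ᵥ lam r = v ⬝ᵥ l0).card =
      ℓ ^ m * (Fintype.card ι + (ℓ - 1) * (Finset.univ.filter fun r => lam r = l0).card) := by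
  classical
  have h1 : ∑ v : Fin m → ZMod ℓ, (Finset.univ.filter fun r => v ⬝ᵥ lam r = v ⬝ᵥ l0).card =
      ∑ r, (Finset.univ.filter fun v : Fin m → ZMod ℓ => v ⬝ᵥ lam r = v ⬝ᵥ l0).card := by
    simp_rw [Finset.card_filter]
    exact Finset.sum_comm
  have h2 : ∀ r, ℓ * (Finset.univ.filter fun v : Fin m → ZMod ℓ => v ⬝ᵥ lam r = v ⬝ᵥ l0).card =
      ℓ ^ m * (1 + (ℓ - 1) * (if lam r = l0 then 1 else 0)) := by
    intro r
    by_cases h : lam r = l0
    · rw [if_pos h, h]
      have : (Finset.univ.filter fun v : Fin m → ZMod ℓ => v ⬝ᵥ l0 = v ⬝ᵥ l0) = Finset.univ := by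
        rw [Finset.filter_true_of_mem]
        intro v _
        rfl
      rw [this, Finset.card_univ, Fintype.card_fun, ZMod.card, Fintype.card_fin, mul_one, mul_comm]
      congr 1
      have := hl.out.one_lt
      omega
    · rw [if_neg h, mul_zero, add_zero, mul_one, ← card_dot_eq_zero (sub_ne_zero.2 h)]
      congr 2
      ext v
      rw [Finset.mem_filter, Finset.mem_filter, dotProduct_sub, sub_eq_zero]
  rw [h1, Finset.mul_sum]
  simp_rw [h2]
  rw [← Finset.mul_sum, Finset.sum_add_distrib, ← Finset.mul_sum, ← Finset.card_filter, Finset.sum_const, smul_eq_mul,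
    mul_one, Finset.card_univ]

end Cfsg.Agent.H186
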