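import Cfsg.Agent.H186.ExcWeyl

/-!
# No block embeddings in `E₇` (helper186)

* `no_block7 : BlockEmb chevE7 K 2 7 → False`;
* `no_block5 : BlockEmb chevE7 K 3 5 → False`.
-/

set_option autoImplicit false

namespace Cfsg.Agent.H186

open Cfsg.Lie Cfsg.Agent.ChevalleyStructure Cfsg.Agent.ChevalleyStructure.Elts
  Cfsg.Agent.ChevalleyStructure.RootCombGood Cfsg.Agent.ChevalleyStructure.RootWord
  Cfsg.Agent.ChevalleyStructure.RootComb Cfsg.Agent.ChevalleyStructure.NPerm Cfsg.Agent.H190 Equiv

universe u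

theorem fix_mod {p : ℕ} [hp : Fact p.Prime] {α : Type*} [Fintype α] [DecidableEq α] {π : Perm α} (h : π ^ p = 1)
    (S : Finset α) (hS : ∀ r ∈ S, π r ∈ S) : S.card ≡ (S.filter fun r => π r = r).card [MOD p] := by
  let f : Function.End S := fun r => ⟨π r, hS r r.2⟩
  have h1 : ∀ (n : ℕ) (r : S), ((f ^ n) r : α) = (π ^ n) r := by
    intro n
    induction n with
    | zero => intro r; rfl
    | succ n ih =>
      intro r
      rw [pow_succ, pow_succ]
      show ((f ^ n) (f r) : α) = (π ^ n) (π r)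
      rw [ih]
  have h2 : f ^ p ^ 1 = 1 := by
    funext r
    apply Subtype.ext
    rw [h1, pow_one, h]
    rfl
  have h3 := Perm.card_fixedPoints_modEq h2
  rw [Fintype.card_coe] at h3
  have h4 : Fintype.card ↥(Function.fixedPoints f) = (S.filter fun r => π r = r).card := by
    rw [Fintype.card_subtype]
    refine Finset.card_bij (fun r _ => (r : α)) ?_ (fun a _ b _ h => Subtype.ext h) ?_
    · intro r hr
      rw [Finset.mem_filter] at hr ⊢
      exact ⟨r.2, congrArg Subtype.val hr.2⟩
    · intro r hr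
      rw [Finset.mem_filter] at hr
      refine ⟨⟨r, hr.1⟩, ?_, rfl⟩
      rw [Finset.mem_filter]
      exact ⟨Finset.mem_univ _, Subtype.ext hr.2⟩
  rw [h4] at h3
  exact h3

/-- a moved point of a permutation of prime order `p` has an orbit of `p` points -/
theorem orbit_card {p : ℕ} [hp : Fact p.Prime] {α : Type*} [DecidableEq α] {π : Perm α} (h : π ^ p = 1) {m : α}
    (hm : π m ≠ m) : ((Finset.range p).image fun i => (π ^ i) m).card = p := by
  have h1 : Function.IsPeriodicPt π p m := by
    show (π)^[p] m = m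
    rw [← Perm.coe_pow, h]
    rfl
  have h2 : Function.minimalPeriod π m = p := by
    rcases (Nat.dvd_prime hp.out).1 h1.minimalPeriod_dvd with h3 | h3
    · exact absurd (Function.minimalPeriod_eq_one_iff_isFixedPt.1 h3) hm
    · exact h3
  rw [Finset.card_image_of_injOn, Finset.card_range]
  intro i hi j hj hij
  have h3 := Function.iterate_injOn_Iio_minimalPeriod (f := π) (x := m)
  rw [h2] at h3
  refine h3 (by simpa using hi) (by simpa using hj) ?_
  show (π)^[i] m = (π)^[j] m
  rw [← Perm.coe_pow, ← Perm.coe_pow]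
  exact hij

/-! ### facts on the roots of `E₇` -/

theorem nonorth0 : ∀ m < chevE7.nroots, ∃ r < chevE7.nroots, chevE7.cartan 0 r ≠ 0 ∧ car chevE7 r m ≠ 0 := by
  decide +kernel

/-- two roots have a common non-orthogonal root -/
theorem nonorth (a m : Fin chevE7.nroots) : ∃ r : Fin chevE7.nroots, car chevE7 r a ≠ 0 ∧ car chevE7 r m ≠ 0 := by
  obtain ⟨w, hw, hwa⟩ := exists_word0 a.2
  have hw' : ∀ b ∈ w.reverse, b < chevE7.rank := fun b hb => hw b (List.mem_reverse.1 hb)
  have hs0 : chevE7.simple 0 < chevE7.nroots := goodE7.simple_lt (by decide)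
  have hm' := wact_lt goodE7 hw' m.2
  obtain ⟨r, hr, h1, h2⟩ := nonorth0 (wact chevE7 w.reverse m) hm'
  refine ⟨⟨wact chevE7 w r, wact_lt goodE7 hw hr⟩, ?_, ?_⟩
  · show car chevE7 (wact chevE7 w r) a ≠ 0
    rw [← hwa, car_wact goodE7 hw hr hs0, car_symm goodE7 slE7 hr hs0, car_simple goodE7 (by decide)]
    exact h1
  · show car chevE7 (wact chevE7 w r) m ≠ 0
    rw [← wact_reverse' goodE7 hw m.2, car_wact goodE7 hw hr hm']
    exact h2

/-- every root has a non-proportional non-orthogonal root -/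
theorem nonorth' (a : Fin chevE7.nroots) : ∃ r : Fin chevE7.nroots, car chevE7 r a ≠ 0 ∧ r ≠ a ∧ r ≠ negPerm goodE7 a := by
  obtain ⟨w, hw, hwa⟩ := exists_word0 a.2
  have hs0 : chevE7.simple 0 < chevE7.nroots := goodE7.simple_lt (by decide)
  have hs2 : chevE7.simple 2 < chevE7.nroots := goodE7.simple_lt (by decide)
  refine ⟨⟨wact chevE7 w (chevE7.simple 2), wact_lt goodE7 hw hs2⟩, ?_, ?_, ?_⟩
  · show car chevE7 (wact chevE7 w (chevE7.simple 2)) a ≠ 0
    rw [← hwa, car_wact goodE7 hw hs2 hs0, car_simple goodE7 (by decide)]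
    decide +kernel
  · intro h
    have h1 : wact chevE7 w (chevE7.simple 2) = a := congrArg Fin.val h
    rw [← hwa] at h1
    have h2 := wact_inj goodE7 hw hs2 hs0 h1
    exact absurd h2 (by decide +kernel)
  · intro h
    have h0 := congrArg Fin.val h
    rw [negPerm_apply] at h0
    have h1 : wact chevE7 w (chevE7.simple 2) = chevE7.neg a := h0
    rw [← hwa, ← wact_neg goodE7 hw hs0] at h1
    have h2 := wact_inj goodE7 hw hs2 (neg_lt goodE7 hs0) h1
    exact absurd h2 (by decide +kernel)

theorem val_lin {D : ChevalleyDatum} {u m r : ℕ} {c : ℤ} (hu : ∀ j < D.rank, co D u j = co D m j - c * co D r j)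
    (x : ℕ → ℤ) : val D x u = val D x m - c * val D x r := by
  unfold val
  rw [Finset.mul_sum, ← Finset.sum_sub_distrib]
  refine Finset.sum_congr rfl fun k hk => ?_
  rw [hu k (Finset.mem_range.1 hk)]
  ring

theorem car_lin {D : ChevalleyDatum} {u m r : ℕ} {c : ℤ} (hu : ∀ j < D.rank, co D u j = co D m j - c * co D r j)
    (s : ℕ) : car D u s = car D m s - c * car D r s := by
  unfold car
  rw [Finset.mul_sum, ← Finset.sum_sub_distrib]
  refine Finset.sum_congr rfl fun k hk => ?_
  rw [hu k (Finset.mem_range.1 hk)]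
  ring

theorem wgt_neg {D : ChevalleyDatum} (G : Good D) (ℓ : ℕ) {m : ℕ} (X : Fin m → ℕ → ℤ) (r : Fin D.nroots) :
    wgt D ℓ X (negPerm G r) = - wgt D ℓ X r := by
  funext b
  show ((val D (X b) (D.neg r) : ℤ) : ZMod ℓ) = - ((val D (X b) r : ℤ) : ZMod ℓ)
  rw [val_neg G _ r.2]
  push_cast
  rfl

theorem negPerm_ne {D : ChevalleyDatum} (G : Good D) (r : Fin D.nroots) : negPerm G r ≠ r := fun h =>
  neg_ne G r.2 (congrArg Fin.val h)

/-! ### `ℓ = 5`, the group is not in the torus -/

theorem five_w {π : Perm (Fin chevE7.nroots)} (hW : IsW chevE7 π) (h5 : π ^ 5 = 1) {X : Fin 2 → ℕ → ℤ}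
    (hinv : ∀ r, wgt chevE7 5 X (π r) = wgt chevE7 5 X r)
    (h0 : (Finset.univ.filter fun r => wgt chevE7 5 X r = 0).card = 6)
    (hl : ∀ l0 : Fin 2 → ZMod 5, l0 ≠ 0 → (Finset.univ.filter fun r => wgt chevE7 5 X r = l0).card = 5) : π = 1 := by
  have : Fact (Nat.Prime 5) := ⟨by norm_num⟩
  -- the roots of weight zero are fixed
  have s1 : ∀ a, wgt chevE7 5 X a = 0 → π a = a := by
    set S := Finset.univ.filter fun r => wgt chevE7 5 X r = 0 with hS
    have h1 := fix_mod h5 S (fun r hr => by
      rw [hS, Finset.mem_filter] at hr ⊢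
      exact ⟨Finset.mem_univ _, (hinv r).trans hr.2⟩)
    rw [h0] at h1
    have hle : (S.filter fun r => π r = r).card ≤ 6 := h0 ▸ Finset.card_filter_le _ _
    have hne : (S.filter fun r => π r = r).card ≠ 1 := by
      intro hc
      obtain ⟨a, ha⟩ := Finset.card_eq_one.1 hc
      have ha' : a ∈ (S.filter fun r => π r = r) := by rw [ha]; exact Finset.mem_singleton_self a
      rw [Finset.mem_filter, hS, Finset.mem_filter] at ha'
      have hn : negPerm goodE7 a ∈ (S.filter fun r => π r = r) := by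
        rw [Finset.mem_filter, hS, Finset.mem_filter]
        refine ⟨⟨Finset.mem_univ _, ?_⟩, ?_⟩
        · rw [wgt_neg, ha'.1.2, neg_zero]
        · rw [hW.neg goodE7, ha'.2]
      rw [ha, Finset.mem_singleton] at hn
      exact negPerm_ne goodE7 a hn
    have h6 : (S.filter fun r => π r = r).card = 6 := by
      have h2 : 6 % 5 = (S.filter fun r => π r = r).card % 5 := h1
      omega
    have h7 : (S.filter fun r => π r = r) = S := Finset.eq_of_subset_of_card_le (Finset.filter_subset _ _) (by rw [h6, h0])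
    intro a ha
    have h8 : a ∈ (S.filter fun r => π r = r) := by
      rw [h7, hS, Finset.mem_filter]
      exact ⟨Finset.mem_univ _, ha⟩
    exact (Finset.mem_filter.1 h8).2
  -- moved roots are orthogonal to the roots of weight zero
  have s2 : ∀ m, π m ≠ m → ∀ a, wgt chevE7 5 X a = 0 → car chevE7 m a = 0 := by
    intro m hm a ha
    have hml : wgt chevE7 5 X m ≠ 0 := fun h => hm (s1 m h)
    obtain ⟨u, hu, hu1, -⟩ := exists_reflection goodE7 a.2 m m.2
    have huw : wgt chevE7 5 X ⟨u, hu⟩ = wgt chevE7 5 X m := by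
      funext b
      have h1 := congrFun ha b
      change ((val chevE7 (X b) a : ℤ) : ZMod 5) = 0 at h1
      show ((val chevE7 (X b) u : ℤ) : ZMod 5) = ((val chevE7 (X b) m : ℤ) : ZMod 5)
      rw [val_lin hu1, Int.cast_sub, Int.cast_mul, h1, mul_zero, sub_zero]
    set C := Finset.univ.filter fun r => wgt chevE7 5 X r = wgt chevE7 5 X m with hC
    have hpow : ∀ i : ℕ, ∀ r, wgt chevE7 5 X ((π ^ i) r) = wgt chevE7 5 X r := by
      intro i
      induction i with
      | zero => intro r; rfl
      | succ i ih =>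
        intro r
        rw [pow_succ]
        show wgt chevE7 5 X ((π ^ i) (π r)) = _
        rw [ih, hinv]
    have hsub : (Finset.range 5).image (fun i => (π ^ i) m) ⊆ C := by
      intro r hr
      rw [Finset.mem_image] at hr
      obtain ⟨i, -, rfl⟩ := hr
      rw [hC, Finset.mem_filter]
      exact ⟨Finset.mem_univ _, hpow i m⟩
    have heq := Finset.eq_of_subset_of_card_le hsub (by rw [hl _ hml, orbit_card h5 hm])
    have humem : (⟨u, hu⟩ : Fin chevE7.nroots) ∈ C := by
      rw [hC, Finset.mem_filter]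
      exact ⟨Finset.mem_univ _, huw⟩
    rw [← heq, Finset.mem_image] at humem
    obtain ⟨i, -, hi⟩ := humem
    have hai : (π ^ i) a = a := by
      clear hi
      induction i with
      | zero => rfl
      | succ i ih =>
        rw [pow_succ]
        show (π ^ i) (π a) = a
        rw [s1 a ha, ih]
    have h2 := (hW.pow i).car goodE7 m a
    rw [hi, hai] at h2
    have h3 := car_lin hu1 a
    rw [goodE7.car_self a.2] at h3
    have h4 : car chevE7 u a = car chevE7 m a := h2
    omega
  -- all roots are fixed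
  by_contra hne
  have hex : ∃ m, π m ≠ m := by
    by_contra hcon
    push Not at hcon
    exact hne (Equiv.ext hcon)
  obtain ⟨m, hm⟩ := hex
  have hnon : (Finset.univ.filter fun r => wgt chevE7 5 X r = 0).Nonempty := by
    rw [← Finset.card_pos, h0]
    norm_num
  obtain ⟨a, ha⟩ := hnon
  rw [Finset.mem_filter] at ha
  obtain ⟨r, hr1, hr2⟩ := nonorth a m
  have hrf : π r = r := by
    by_contra h
    exact hr1 (s2 r h a ha.2)
  obtain ⟨u, hu, hu1, -⟩ := exists_reflection goodE7 r.2 m m.2
  have hmr : car chevE7 m r ≠ 0 := by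
    rw [car_symm goodE7 slE7 m.2 r.2]
    exact hr2
  have hum : π ⟨u, hu⟩ ≠ ⟨u, hu⟩ := by
    intro h
    apply hm
    apply Fin.ext
    apply goodE7.co_inj (π m).2 m.2
    intro j hj
    have h1 := hW.lin goodE7 (u := ⟨u, hu⟩) (m := m) (r := r) hu1 hj
    rw [h, hrf, hu1 j hj] at h1
    omega
  have h1 := s2 ⟨u, hu⟩ hum a ha.2
  have h2 := s2 m hm a ha.2
  have h3 := car_lin hu1 a
  have h4 : car chevE7 u a = 0 := h1
  rw [h4, h2, zero_sub, zero_eq_neg, mul_eq_zero] at h3
  rcases h3 with h3 | h3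
  · exact hmr h3
  · exact hr1 h3

end Cfsg.Agent.H186
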