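import Cfsg.Agent.H186.ExcE7

/-!
# No block embeddings in `E₇`: conclusion (helper186)

* `no_block7 : BlockEmb chevE7 K 2 7 → False`;
* `no_block5 : BlockEmb chevE7 K 3 5 → False`.
-/

set_option autoImplicit false

namespace Cfsg.Agent.H186

open Cfsg.Lie Cfsg.Agent.ChevalleyStructure Cfsg.Agent.ChevalleyStructure.Elts
  Cfsg.Agent.ChevalleyStructure.RootCombGood Cfsg.Agent.ChevalleyStructure.RootWord
  Cfsg.Agent.ChevalleyStructure.RootComb Cfsg.Agent.ChevalleyStructure.NPerm Cfsg.Agent.H190 Equiv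

universe u

theorem exists_root {K : Type u} [Field K] [Fintype K] {ℓ : ℕ} (hl : ℓ ∣ Fintype.card K - 1) :
    ∃ ζ : K, IsPrimitiveRoot ζ ℓ := by
  classical
  obtain ⟨g, hg⟩ := IsCyclic.exists_ofOrder_eq_natCard (α := Kˣ)
  rw [Nat.card_eq_fintype_card, Fintype.card_units] at hg
  obtain ⟨m, hm⟩ := hl
  have h1 : IsPrimitiveRoot g (Fintype.card K - 1) := hg ▸ IsPrimitiveRoot.orderOf g
  have hpos : 0 < Fintype.card K - 1 := by
    have := Fintype.one_lt_card (α := K)
    omega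
  have h2 : IsPrimitiveRoot (g ^ m) ℓ := h1.pow hpos (by rw [hm]; ring)
  exact ⟨((g ^ m : Kˣ) : K), IsPrimitiveRoot.coe_units_iff.2 h2⟩

section Hom

variable {D : ChevalleyDatum} {K : Type u} [Field K] {k ℓ : ℕ} [NeZero ℓ]

/-- the action on the roots -/
noncomputable def BlockEmb.chi (be : BlockEmb D K k ℓ) (hD : InList D) :
    Multiplicative (Fin k → ZMod ℓ) →* Perm (Fin D.nroots) :=
  (permHom hD K).comp (be.σ.codRestrict _ be.mem)

theorem BlockEmb.mem_ker (be : BlockEmb D K k ℓ) (hD : InList D) (v : Multiplicative (Fin k → ZMod ℓ)) :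
    v ∈ (be.chi hD).ker ↔ be.σ v ∈ D.diagonalSubgroup K := by
  have h := ker_permHom hD K
  have h1 : v ∈ (be.chi hD).ker ↔ (⟨be.σ v, be.mem v⟩ : ↥(D.monomialSubgroup K)) ∈ (permHom hD K).ker := Iff.rfl
  rw [h1, h]
  exact Iff.rfl

theorem BlockEmb.chi_range (be : BlockEmb D K k ℓ) (hD : InList D) (v : Multiplicative (Fin k → ZMod ℓ)) :
    be.chi hD v ∈ (permHom hD K).range := ⟨_, rfl⟩

theorem BlockEmb.index_dvd (be : BlockEmb D K k ℓ) (hD : InList D) :
    (be.chi hD).ker.index ∣ Nat.card (permHom hD K).range := by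
  rw [Subgroup.index_ker]
  apply Subgroup.card_dvd_of_le
  rintro _ ⟨v, rfl⟩
  exact be.chi_range hD v

theorem BlockEmb.index_dvd' (be : BlockEmb D K k ℓ) (hD : InList D) : (be.chi hD).ker.index ∣ ℓ ^ k := by
  have h := (be.chi hD).ker.index_dvd_card
  have h2 : Nat.card (Multiplicative (Fin k → ZMod ℓ)) = ℓ ^ k := by
    rw [Nat.card_congr Multiplicative.toAdd, Nat.card_eq_fintype_card, Fintype.card_fun, ZMod.card, Fintype.card_fin]
  rwa [h2] at h

theorem BlockEmb.chi_pow (be : BlockEmb D K k ℓ) (hD : InList D) (v : Multiplicative (Fin k → ZMod ℓ)) :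
    be.chi hD v ^ ℓ = 1 := by
  rw [← map_pow]
  have : v ^ ℓ = 1 := by
    apply Multiplicative.toAdd.injective
    rw [toAdd_pow, toAdd_one]
    funext i
    rw [Pi.smul_apply, Pi.zero_apply, nsmul_eq_mul, ZMod.natCast_self, zero_mul]
  rw [this, map_one]

/-- the permutations preserve the weights -/
theorem BlockEmb.wgt_inv {m : ℕ} (be : BlockEmb D K k ℓ) (hD : InList D) {ζ : K} (hζ : IsPrimitiveRoot ζ ℓ)
    {u : Fin m → Fin k → ZMod ℓ} {X : Fin m → ℕ → ℤ}
    (hX : ∀ c, be.σ (Multiplicative.ofAdd (comb u c)) ∈ D.diagonalSubgroup K ∧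
      ∀ r, ent (be.σ (Multiplicative.ofAdd (comb u c))) r = zE ζ (c ⬝ᵥ wgt D ℓ X r))
    (v : Multiplicative (Fin k → ZMod ℓ)) (r : Fin D.nroots) :
    wgt D ℓ X (be.chi hD v r) = wgt D ℓ X r := by
  funext b
  obtain ⟨h1, h2⟩ := hX (Pi.single b 1)
  have hcomm : be.σ v * be.σ (Multiplicative.ofAdd (comb u (Pi.single b 1))) * (be.σ v)⁻¹ =
      be.σ (Multiplicative.ofAdd (comb u (Pi.single b 1))) := by
    rw [← map_mul, mul_comm v, map_mul, mul_inv_cancel_right]
  have h3 := ent_perm hD ⟨be.σ v, be.mem v⟩ h1 hcomm r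
  have h4 : ent (be.σ (Multiplicative.ofAdd (comb u (Pi.single b 1)))) (be.chi hD v r) =
      ent (be.σ (Multiplicative.ofAdd (comb u (Pi.single b 1)))) r := h3
  rw [h2, h2] at h4
  have h5 := zE_injective hζ h4
  rwa [single_dotProduct, single_dotProduct, one_mul, one_mul] at h5

end Hom

theorem sum_Mct {D : ChevalleyDatum} {ℓ m : ℕ} [NeZero ℓ] (X : Fin m → ℕ → ℤ) (c : Fin m → ZMod ℓ) :
    ∑ j, Mct D X c j = D.nroots := by
  unfold Mct
  simp_rw [Finset.card_filter]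
  rw [Finset.sum_comm]
  simp

theorem Mct_total {D : ChevalleyDatum} {ℓ m : ℕ} [NeZero ℓ] {X : Fin m → ℕ → ℤ} {c : Fin m → ZMod ℓ} {μ : ℕ}
    (h : ∀ j, j ≠ 0 → Mct D X c j = μ) : Mct D X c 0 + (ℓ - 1) * μ = D.nroots := by
  classical
  rw [← sum_Mct X c, ← Finset.add_sum_erase _ _ (Finset.mem_univ (0 : ZMod ℓ)), Finset.sum_congr rfl
    (fun j hj => h j (Finset.ne_of_mem_erase hj)), Finset.sum_const, Finset.card_erase_of_mem (Finset.mem_univ _),
    Finset.card_univ, ZMod.card, smul_eq_mul]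

/-- the inversion formula in terms of `Mct` -/
theorem Mct_inversion {D : ChevalleyDatum} {ℓ m : ℕ} [NeZero ℓ] [Fact ℓ.Prime] (X : Fin m → ℕ → ℤ)
    (l0 : Fin m → ZMod ℓ) : ℓ * ∑ v : Fin m → ZMod ℓ, Mct D X v (v ⬝ᵥ l0) =
      ℓ ^ m * (D.nroots + (ℓ - 1) * (Finset.univ.filter fun r => wgt D ℓ X r = l0).card) := by
  have h := inversion (wgt D ℓ X) l0
  rw [Fintype.card_fin] at h
  exact h

/-! ### `ℓ = 5` -/

theorem inv5 {m : ℕ} {X : Fin m → ℕ → ℤ}
    (h : ∀ c : Fin m → ZMod 5, c ≠ 0 → Mct chevE7 X c 0 = 26 ∧ ∀ j, j ≠ 0 → Mct chevE7 X c j = 25) (l0 : Fin m → ZMod 5) :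
    5 * (25 * 5 ^ m + (Finset.univ.filter fun v : Fin m → ZMod 5 => v ⬝ᵥ l0 = 0).card + 100) =
      5 ^ m * (126 + 4 * (Finset.univ.filter fun r => wgt chevE7 5 X r = l0).card) := by
  classical
  have : Fact (Nat.Prime 5) := ⟨by norm_num⟩
  have h1 : 5 * ∑ v : Fin m → ZMod 5, Mct chevE7 X v (v ⬝ᵥ l0) =
      5 ^ m * (126 + 4 * (Finset.univ.filter fun r => wgt chevE7 5 X r = l0).card) := Mct_inversion (D := chevE7) X l0
  rw [← h1]
  congr 1
  have h2 : ∀ v : Fin m → ZMod 5, Mct chevE7 X v (v ⬝ᵥ l0) = 25 + (if v ⬝ᵥ l0 = 0 then 1 else 0) + (if v = 0 then 100 else 0) := by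
    intro v
    by_cases hv : v = 0
    · subst hv
      rw [zero_dotProduct, Mct_zero, if_pos rfl, if_pos rfl]
      rfl
    · rw [if_neg hv]
      by_cases h0 : v ⬝ᵥ l0 = 0
      · rw [h0, if_pos rfl, (h v hv).1]
      · rw [if_neg h0, (h v hv).2 _ h0]
  simp_rw [h2]
  rw [Finset.sum_add_distrib, Finset.sum_add_distrib, Finset.sum_const, Finset.card_univ, Fintype.card_fun, ZMod.card,
    Fintype.card_fin, ← Finset.card_filter, Finset.sum_ite_eq', if_pos (Finset.mem_univ _), smul_eq_mul, mul_comm 25]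

theorem inE7 : InList chevE7 := by simp [InList]

/-- rational elements of order 5: the numbers of roots -/
theorem data5 {K : Type u} [Field K] {m : ℕ} (be : BlockEmb chevE7 K 3 5) {ζ : K} (hζ : IsPrimitiveRoot ζ 5)
    {u : Fin m → Fin 3 → ZMod 5} {X : Fin m → ℕ → ℤ}
    (hX : ∀ c, be.σ (Multiplicative.ofAdd (comb u c)) ∈ chevE7.diagonalSubgroup K ∧
      ∀ r, ent (be.σ (Multiplicative.ofAdd (comb u c))) r = zE ζ (c ⬝ᵥ wgt chevE7 5 X r))
    (hu : ∀ c, comb u c = 0 → c = 0) :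
    ∀ c : Fin m → ZMod 5, c ≠ 0 → Mct chevE7 X c 0 = 26 ∧ ∀ j, j ≠ 0 → Mct chevE7 X c j = 25 := by
  have : Fact (Nat.Prime 5) := ⟨by norm_num⟩
  intro c hc
  have h1 : ∀ j, j ≠ 0 → Mct chevE7 X c j = Mct chevE7 X c 1 := fun j hj =>
    Mct_rational inE7 be hζ hX c hj one_ne_zero
  have h2 := class5 (cvec X c) (μ := Mct chevE7 X c 1) (fun a ha => by rw [← Mct_eq_N1]; exact h1 a ha)
  rw [← Mct_eq_N1] at h2
  have h3 := Mct_total h1
  have e : chevE7.nroots = 126 := rfl
  have h4 : Mct chevE7 X c 0 ≠ 126 := fun h => hc (hu c (Mct_eq_all inE7 be hX c h))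
  simp only [List.mem_cons, List.not_mem_nil, or_false] at h2
  have h5 : Mct chevE7 X c 0 = 26 := by omega
  refine ⟨h5, fun j hj => ?_⟩
  rw [h1 j hj]
  omega

theorem comb_single {k ℓ : ℕ} [NeZero ℓ] (c : Fin k → ZMod ℓ) : comb (fun b : Fin k => (Pi.single b 1 : Fin k → ZMod ℓ)) c = c := by
  unfold comb
  funext i
  rw [Finset.sum_apply]
  simp [Pi.single_apply]

theorem no_block5 {K : Type u} [Field K] [Fintype K] (hK : 5 ∣ Fintype.card K - 1) (be : BlockEmb chevE7 K 3 5) : False := by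
  classical
  have : Fact (Nat.Prime 5) := ⟨by norm_num⟩
  obtain ⟨ζ, hζ⟩ := exists_root hK
  have hidx : (be.chi inE7).ker.index ∣ 5 := by
    have h1 := be.index_dvd inE7
    rw [card_range_E7] at h1
    have h2 := be.index_dvd' inE7
    exact (Nat.dvd_gcd h2 h1).trans (by norm_num)
  rcases (Nat.dvd_prime (by norm_num : Nat.Prime 5)).1 hidx with h | h
  · -- in the torus
    rw [Subgroup.index_eq_one] at h
    obtain ⟨X, hX⟩ := exists_weights inE7 slE7 be hζ (fun b : Fin 3 => (Pi.single b 1 : Fin 3 → ZMod 5)) (fun b => by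
      rw [← be.mem_ker inE7, h]; trivial)
    have hd := data5 be hζ hX (fun c hc => by rwa [comb_single] at hc)
    have n0 : (Finset.univ.filter fun r => wgt chevE7 5 X r = 0).card = 2 := by
      have h1 := inv5 hd 0
      have h2 : (Finset.univ.filter fun v : Fin 3 → ZMod 5 => v ⬝ᵥ 0 = 0).card = 125 := by
        rw [Finset.filter_true_of_mem (fun v _ => dotProduct_zero v), Finset.card_univ, Fintype.card_fun, ZMod.card,
          Fintype.card_fin]
        norm_num
      rw [h2] at h1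
      omega
    have n1 : ∀ l0 : Fin 3 → ZMod 5, l0 ≠ 0 → (Finset.univ.filter fun r => wgt chevE7 5 X r = l0).card = 1 := by
      intro l0 hl0
      have h1 := inv5 hd l0
      have h2 := card_dot_eq_zero (m := 3) (ℓ := 5) hl0
      omega
    have hnon : (Finset.univ.filter fun r => wgt chevE7 5 X r = 0).Nonempty := by
      rw [← Finset.card_pos, n0]
      norm_num
    obtain ⟨a, ha⟩ := hnon
    have ha' := (Finset.mem_filter.1 ha).2
    obtain ⟨r, hr1, hr2, hr3⟩ := nonorth' a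
    obtain ⟨v, hv, hv1, -⟩ := exists_reflection goodE7 a.2 r r.2
    have hvw : wgt chevE7 5 X ⟨v, hv⟩ = wgt chevE7 5 X r := by
      funext b
      have h1 := congrFun ha' b
      change ((val chevE7 (X b) a : ℤ) : ZMod 5) = 0 at h1
      show ((val chevE7 (X b) v : ℤ) : ZMod 5) = ((val chevE7 (X b) r : ℤ) : ZMod 5)
      rw [val_lin hv1, Int.cast_sub, Int.cast_mul, h1, mul_zero, sub_zero]
    have hne : (⟨v, hv⟩ : Fin chevE7.nroots) ≠ r := by
      intro h'
      obtain ⟨j, hj, hj0⟩ := goodE7.co_ne_zero a.2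
      have h1 := hv1 j hj
      have h2 : v = r := congrArg Fin.val h'
      rw [h2] at h1
      have h3 : car chevE7 r a * co chevE7 a j = 0 := by omega
      rcases mul_eq_zero.1 h3 with h4 | h4
      · exact hr1 h4
      · exact hj0 h4
    by_cases hr0 : wgt chevE7 5 X r = 0
    · have hsub : ({a, negPerm goodE7 a, r} : Finset (Fin chevE7.nroots)) ⊆
          Finset.univ.filter fun r => wgt chevE7 5 X r = 0 := by
        intro s hs
        rw [Finset.mem_insert, Finset.mem_insert, Finset.mem_singleton] at hs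
        rw [Finset.mem_filter]
        refine ⟨Finset.mem_univ _, ?_⟩
        rcases hs with rfl | rfl | rfl
        · exact ha'
        · rw [wgt_neg, ha', neg_zero]
        · exact hr0
      have h1 := Finset.card_le_card hsub
      rw [n0, Finset.card_eq_three.2 ⟨a, negPerm goodE7 a, r, (negPerm_ne goodE7 a).symm, hr2.symm, hr3.symm, rfl⟩] at h1
      omega
    · obtain ⟨s, hs⟩ := Finset.card_eq_one.1 (n1 _ hr0)
      have h1 : r ∈ (Finset.univ.filter fun r' => wgt chevE7 5 X r' = wgt chevE7 5 X r) :=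
        Finset.mem_filter.2 ⟨Finset.mem_univ _, rfl⟩
      have h2 : (⟨v, hv⟩ : Fin chevE7.nroots) ∈ (Finset.univ.filter fun r' => wgt chevE7 5 X r' = wgt chevE7 5 X r) :=
        Finset.mem_filter.2 ⟨Finset.mem_univ _, hvw⟩
      rw [hs, Finset.mem_singleton] at h1 h2
      exact hne (h2.trans h1.symm)
  · -- not in the torus
    have hcard : Nat.card (be.chi inE7).ker = 25 := by
      have h1 := (be.chi inE7).ker.card_mul_index
      rw [h, Nat.card_congr Multiplicative.toAdd, Nat.card_eq_fintype_card (α := Fin 3 → ZMod 5), Fintype.card_fun,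
        ZMod.card, Fintype.card_fin] at h1
      omega
    -- an element outside
    have hex : ∃ v3, v3 ∉ (be.chi inE7).ker := by
      by_contra hcon
      push Not at hcon
      have : (be.chi inE7).ker = ⊤ := by
        rw [eq_top_iff]
        intro v _
        exact hcon v
      rw [this, Subgroup.index_top] at h
      omega
    obtain ⟨v3, hv3⟩ := hex
    -- a basis of the kernel
    have hex1 : ∃ u1 ∈ (be.chi inE7).ker, u1 ≠ 1 := by
      by_contra hcon
      push Not at hcon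
      have : (be.chi inE7).ker = ⊥ := by
        rw [eq_bot_iff]
        intro v hv
        exact Subgroup.mem_bot.2 (hcon v hv)
      rw [this, Subgroup.card_bot] at hcard
      omega
    obtain ⟨u1, hu1, hu1n⟩ := hex1
    have hord : ∀ v : Multiplicative (Fin 3 → ZMod 5), v ^ 5 = 1 := by
      intro v
      apply Multiplicative.toAdd.injective
      rw [toAdd_pow, toAdd_one]
      funext i
      rw [Pi.smul_apply, Pi.zero_apply, nsmul_eq_mul]
      have : ((5 : ℕ) : ZMod 5) = 0 := ZMod.natCast_self 5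
      rw [this, zero_mul]
    have hex2 : ∃ u2 ∈ (be.chi inE7).ker, u2 ∉ Subgroup.zpowers u1 := by
      by_contra hcon
      push Not at hcon
      have hle : (be.chi inE7).ker ≤ Subgroup.zpowers u1 := hcon
      have h1 := Subgroup.card_le_of_le hle
      rw [Nat.card_zpowers, hcard] at h1
      have h2 := Nat.le_of_dvd (by norm_num) (orderOf_dvd_of_pow_eq_one (hord u1))
      omega
    obtain ⟨u2, hu2, hu2n⟩ := hex2
    let u : Fin 2 → Fin 3 → ZMod 5 := ![u1.toAdd, u2.toAdd]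
    obtain ⟨X, hX⟩ := exists_weights inE7 slE7 be hζ u (fun b => by
      rw [← be.mem_ker inE7]
      fin_cases b
      · exact hu1
      · exact hu2)
    have hind : ∀ c, comb u c = 0 → c = 0 := by
      intro c hc
      have h1 : c 0 • u1.toAdd + c 1 • u2.toAdd = 0 := by
        rw [← hc]
        unfold comb
        rw [Fin.sum_univ_two]
        rfl
      by_cases h2 : c 1 = 0
      · rw [h2, zero_smul, add_zero] at h1
        have h3 : c 0 = 0 := by
          by_contra h4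
          apply hu1n
          apply Multiplicative.toAdd.injective
          rw [toAdd_one]
          rcases smul_eq_zero.1 h1 with h5 | h5
          · exact absurd h5 h4
          · exact h5
        funext b
        fin_cases b
        · exact h3
        · exact h2
      · exfalso
        apply hu2n
        rw [Subgroup.mem_zpowers_iff]
        refine ⟨((-(c 0) / c 1).val : ℤ), ?_⟩
        apply Multiplicative.toAdd.injective
        rw [toAdd_zpow, natCast_zsmul]
        have h3 : u2.toAdd = (-(c 0) / c 1) • u1.toAdd := by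
          have h4 : c 1 • u2.toAdd = -(c 0) • u1.toAdd := by
            rw [neg_smul]
            exact eq_neg_of_add_eq_zero_right h1
          rw [div_eq_inv_mul, mul_smul, ← h4, smul_smul, inv_mul_cancel₀ h2, one_smul]
        rw [h3]
        funext i
        rw [Pi.smul_apply, Pi.smul_apply, nsmul_eq_mul, ZMod.natCast_zmod_val, smul_eq_mul]
    have hd := data5 be hζ hX hind
    have n0 : (Finset.univ.filter fun r => wgt chevE7 5 X r = 0).card = 6 := by
      have h1 := inv5 hd 0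
      have h2 : (Finset.univ.filter fun v : Fin 2 → ZMod 5 => v ⬝ᵥ 0 = 0).card = 25 := by
        rw [Finset.filter_true_of_mem (fun v _ => dotProduct_zero v), Finset.card_univ, Fintype.card_fun, ZMod.card,
          Fintype.card_fin]
        norm_num
      rw [h2] at h1
      omega
    have n1 : ∀ l0 : Fin 2 → ZMod 5, l0 ≠ 0 → (Finset.univ.filter fun r => wgt chevE7 5 X r = l0).card = 5 := by
      intro l0 hl0
      have h1 := inv5 hd l0
      have h2 := card_dot_eq_zero (m := 2) (ℓ := 5) hl0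
      omega
    exact hv3 (five_w (isW_permHom inE7 _) (be.chi_pow inE7 v3) (be.wgt_inv inE7 hζ hX v3) n0 n1)

/-! ### `ℓ = 7` -/

theorem cnt7_0 : (Finset.univ.filter fun v : Fin 2 → ZMod 7 => (v ≠ 0 ∧ (v 0 = 0 ∨ v 1 = 0)) ∧ v ⬝ᵥ (0 : Fin 2 → ZMod 7) = 0).card = 12 ∧
    (Finset.univ.filter fun v : Fin 2 → ZMod 7 => (v ≠ 0 ∧ (v 0 = 0 ∨ v 1 = 0)) ∧ v ⬝ᵥ (0 : Fin 2 → ZMod 7) ≠ 0).card = 0 ∧
    (Finset.univ.filter fun v : Fin 2 → ZMod 7 => (v 0 ≠ 0 ∧ v 1 ≠ 0) ∧ v ⬝ᵥ (0 : Fin 2 → ZMod 7) = 0).card = 36 ∧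
    (Finset.univ.filter fun v : Fin 2 → ZMod 7 => (v 0 ≠ 0 ∧ v 1 ≠ 0) ∧ v ⬝ᵥ (0 : Fin 2 → ZMod 7) ≠ 0).card = 0 := by
  decide +kernel

theorem cnt7_1 : ∀ l0 : Fin 2 → ZMod 7, (l0 0 = 0 ∧ l0 1 ≠ 0) ∨ (l0 0 = 1 ∧ l0 1 = 0) →
    (Finset.univ.filter fun v : Fin 2 → ZMod 7 => (v ≠ 0 ∧ (v 0 = 0 ∨ v 1 = 0)) ∧ v ⬝ᵥ l0 = 0).card = 6 ∧
    (Finset.univ.filter fun v : Fin 2 → ZMod 7 => (v ≠ 0 ∧ (v 0 = 0 ∨ v 1 = 0)) ∧ v ⬝ᵥ l0 ≠ 0).card = 6 ∧
    (Finset.univ.filter fun v : Fin 2 → ZMod 7 => (v 0 ≠ 0 ∧ v 1 ≠ 0) ∧ v ⬝ᵥ l0 = 0).card = 0 ∧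
    (Finset.univ.filter fun v : Fin 2 → ZMod 7 => (v 0 ≠ 0 ∧ v 1 ≠ 0) ∧ v ⬝ᵥ l0 ≠ 0).card = 36 := by
  decide +kernel

theorem cnt7_2 : ∀ l0 : Fin 2 → ZMod 7, (l0 0 = 1 ∧ l0 1 ≠ 0) →
    (Finset.univ.filter fun v : Fin 2 → ZMod 7 => (v ≠ 0 ∧ (v 0 = 0 ∨ v 1 = 0)) ∧ v ⬝ᵥ l0 = 0).card = 0 ∧
    (Finset.univ.filter fun v : Fin 2 → ZMod 7 => (v ≠ 0 ∧ (v 0 = 0 ∨ v 1 = 0)) ∧ v ⬝ᵥ l0 ≠ 0).card = 12 ∧
    (Finset.univ.filter fun v : Fin 2 → ZMod 7 => (v 0 ≠ 0 ∧ v 1 ≠ 0) ∧ v ⬝ᵥ l0 = 0).card = 6 ∧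
    (Finset.univ.filter fun v : Fin 2 → ZMod 7 => (v 0 ≠ 0 ∧ v 1 ≠ 0) ∧ v ⬝ᵥ l0 ≠ 0).card = 30 := by
  decide +kernel

theorem ne10 : (![1, 0] : Fin 2 → ZMod 7) ≠ 0 := by decide
theorem ne11 : (![1, 1] : Fin 2 → ZMod 7) ≠ 0 := by decide
theorem eq00 : (![0, 0] : Fin 2 → ZMod 7) = 0 := by decide

theorem no_block7 {K : Type u} [Field K] [Fintype K] (hK : 7 ∣ Fintype.card K - 1) (be : BlockEmb chevE7 K 2 7) : False := by
  have : Fact (Nat.Prime 7) := ⟨by norm_num⟩
  obtain ⟨ζ, hζ⟩ := exists_root hK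
  have e : chevE7.nroots = 126 := rfl
  have hidx : (be.chi inE7).ker.index ∣ 7 := by
    have h1 := be.index_dvd inE7
    rw [card_range_E7] at h1
    have h2 := be.index_dvd' inE7
    exact (Nat.dvd_gcd h2 h1).trans (by norm_num)
  have hcl : ∀ {m : ℕ} {u : Fin m → Fin 2 → ZMod 7} {X : Fin m → ℕ → ℤ}
      (hX : ∀ c, be.σ (Multiplicative.ofAdd (comb u c)) ∈ chevE7.diagonalSubgroup K ∧
        ∀ r, ent (be.σ (Multiplicative.ofAdd (comb u c))) r = zE ζ (c ⬝ᵥ wgt chevE7 7 X r)) (c : Fin m → ZMod 7),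
      comb u c ≠ 0 → (Mct chevE7 X c 0 = 12 ∧ ∀ j, j ≠ 0 → Mct chevE7 X c j = 19) ∨
        (Mct chevE7 X c 0 = 24 ∧ ∀ j, j ≠ 0 → Mct chevE7 X c j = 17) ∨
        (Mct chevE7 X c 0 = 30 ∧ ∀ j, j ≠ 0 → Mct chevE7 X c j = 16) := by
    intro m u X hX c hc
    have h1 : ∀ j, j ≠ 0 → Mct chevE7 X c j = Mct chevE7 X c 1 := fun j hj =>
      Mct_rational inE7 be hζ hX c hj one_ne_zero
    have h2 := class7 (cvec X c) (μ := Mct chevE7 X c 1) (fun a ha => by rw [← Mct_eq_N1]; exact h1 a ha)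
    rw [← Mct_eq_N1] at h2
    have h3 := Mct_total h1
    have h4 : Mct chevE7 X c 0 ≠ 126 := fun h => hc (Mct_eq_all inE7 be hX c h)
    simp only [List.mem_cons, List.not_mem_nil, or_false] at h2
    rcases h2 with h5 | h5 | h5 | h5
    · exact Or.inl ⟨h5, fun j hj => by rw [h1 j hj]; omega⟩
    · exact Or.inr (Or.inl ⟨h5, fun j hj => by rw [h1 j hj]; omega⟩)
    · exact Or.inr (Or.inr ⟨h5, fun j hj => by rw [h1 j hj]; omega⟩)
    · exact absurd h5 h4
  rcases (Nat.dvd_prime (by norm_num : Nat.Prime 7)).1 hidx with h | h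
  · -- in the torus
    rw [Subgroup.index_eq_one] at h
    obtain ⟨X, hX⟩ := exists_weights inE7 slE7 be hζ (fun b : Fin 2 => (Pi.single b 1 : Fin 2 → ZMod 7)) (fun b => by
      rw [← be.mem_ker inE7, h]; trivial)
    -- the two types
    have t1 : ∀ c : Fin 2 → ZMod 7, c ≠ 0 → (c 0 = 0 ∨ c 1 = 0) → ∀ j, Mct chevE7 X c j = Mct chevE7 X (![1, 0] : Fin 2 → ZMod 7) j := by
      intro c hc h01 j
      have hswap : ∀ c' : Fin 2 → ZMod 7, c' 0 = 0 → c' 1 ≠ 0 → ∀ j, Mct chevE7 X c' j = Mct chevE7 X ![c' 1, 0] j := by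
        intro c' h0 h1 j
        refine Mct_conj inE7 be hζ hX (ρ := blk 2 7 (Equiv.swap 0 1)) ?_ j
        rw [comb_single, comb_single, blk_conj]
        congr 1
        funext b
        fin_cases b
        · rfl
        · show c' ((Equiv.swap 0 1).symm 1) = _
          rw [Equiv.symm_swap, Equiv.swap_apply_right, h0]
          rfl
      have hscale : ∀ a : ZMod 7, a ≠ 0 → ∀ j, Mct chevE7 X ![a, 0] j = Mct chevE7 X (![1, 0] : Fin 2 → ZMod 7) j := by
        intro a ha j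
        obtain ⟨ρ, hρ⟩ := exists_scl (k := 2) (ℓ := 7) (v := ![a, 0]) (w := ![1, 0]) (by
          intro b
          fin_cases b
          · show a = 0 ↔ (1 : ZMod 7) = 0
            exact ⟨fun h => absurd h ha, fun h => absurd h one_ne_zero⟩
          · exact Iff.rfl)
        exact Mct_conj inE7 be hζ hX (ρ := ρ) (by rw [comb_single, comb_single]; exact hρ) j
      rcases h01 with h0 | h1
      · have h1 : c 1 ≠ 0 := by
          intro h1
          apply hc
          funext b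
          fin_cases b
          · exact h0
          · exact h1
        rw [hswap c h0 h1, hscale _ h1]
      · have h0 : c 0 ≠ 0 := by
          intro h0
          apply hc
          funext b
          fin_cases b
          · exact h0
          · exact h1
        have hc' : c = ![c 0, 0] := by
          funext b
          fin_cases b
          · rfl
          · exact h1
        rw [hc']
        exact hscale _ h0 j
    have t2 : ∀ c : Fin 2 → ZMod 7, c 0 ≠ 0 → c 1 ≠ 0 → ∀ j, Mct chevE7 X c j = Mct chevE7 X (![1, 1] : Fin 2 → ZMod 7) j := by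
      intro c h0 h1 j
      obtain ⟨ρ, hρ⟩ := exists_scl (k := 2) (ℓ := 7) (v := c) (w := ![1, 1]) (by
        intro b
        fin_cases b
        · show c 0 = 0 ↔ (1 : ZMod 7) = 0
          exact ⟨fun h => absurd h h0, fun h => absurd h one_ne_zero⟩
        · show c 1 = 0 ↔ (1 : ZMod 7) = 0
          exact ⟨fun h => absurd h h1, fun h => absurd h one_ne_zero⟩)
      exact Mct_conj inE7 be hζ hX (ρ := ρ) (by rw [comb_single, comb_single]; exact hρ) j
    -- the equation for the multiplicity of a weight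
    have key : ∀ f1 m1 f2 m2 : ℕ, Mct chevE7 X (![1, 0] : Fin 2 → ZMod 7) 0 = f1 → (∀ j, j ≠ 0 → Mct chevE7 X (![1, 0] : Fin 2 → ZMod 7) j = m1) →
        Mct chevE7 X (![1, 1] : Fin 2 → ZMod 7) 0 = f2 → (∀ j, j ≠ 0 → Mct chevE7 X (![1, 1] : Fin 2 → ZMod 7) j = m2) → ∀ l0 : Fin 2 → ZMod 7,
        126 + f1 * (Finset.univ.filter fun v : Fin 2 → ZMod 7 => (v ≠ 0 ∧ (v 0 = 0 ∨ v 1 = 0)) ∧ v ⬝ᵥ l0 = 0).card +
          m1 * (Finset.univ.filter fun v : Fin 2 → ZMod 7 => (v ≠ 0 ∧ (v 0 = 0 ∨ v 1 = 0)) ∧ v ⬝ᵥ l0 ≠ 0).card +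
          f2 * (Finset.univ.filter fun v : Fin 2 → ZMod 7 => (v 0 ≠ 0 ∧ v 1 ≠ 0) ∧ v ⬝ᵥ l0 = 0).card +
          m2 * (Finset.univ.filter fun v : Fin 2 → ZMod 7 => (v 0 ≠ 0 ∧ v 1 ≠ 0) ∧ v ⬝ᵥ l0 ≠ 0).card =
          882 + 42 * (Finset.univ.filter fun r => wgt chevE7 7 X r = l0).card := by
      intro f1 m1 f2 m2 hf1 hm1 hf2 hm2 l0
      have h1 : 7 * ∑ v : Fin 2 → ZMod 7, Mct chevE7 X v (v ⬝ᵥ l0) =
        7 ^ 2 * (126 + 6 * (Finset.univ.filter fun r => wgt chevE7 7 X r = l0).card) := Mct_inversion (D := chevE7) X l0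
      have h2 : ∀ v : Fin 2 → ZMod 7, Mct chevE7 X v (v ⬝ᵥ l0) = (if v = 0 then 126 else 0) +
          f1 * (if (v ≠ 0 ∧ (v 0 = 0 ∨ v 1 = 0)) ∧ v ⬝ᵥ l0 = 0 then 1 else 0) +
          m1 * (if (v ≠ 0 ∧ (v 0 = 0 ∨ v 1 = 0)) ∧ v ⬝ᵥ l0 ≠ 0 then 1 else 0) +
          f2 * (if (v 0 ≠ 0 ∧ v 1 ≠ 0) ∧ v ⬝ᵥ l0 = 0 then 1 else 0) +
          m2 * (if (v 0 ≠ 0 ∧ v 1 ≠ 0) ∧ v ⬝ᵥ l0 ≠ 0 then 1 else 0) := by
        intro v
        by_cases hv : v = 0
        · subst hv
          rw [zero_dotProduct, Mct_zero, if_pos rfl, if_neg (fun h => h.1.1 rfl), if_neg (fun h => h.1.1 rfl),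
            if_neg (fun h => h.1.1 rfl), if_neg (fun h => h.1.1 rfl)]
          show 126 = _
          omega
        · by_cases h01 : v 0 = 0 ∨ v 1 = 0
          · have hn : ¬ (v 0 ≠ 0 ∧ v 1 ≠ 0) := fun h => h01.elim h.1 h.2
            rw [t1 v hv h01]
            by_cases h0 : v ⬝ᵥ l0 = 0
            · rw [if_neg hv, if_pos ⟨⟨hv, h01⟩, h0⟩, if_neg (fun h => h.2 h0), if_neg (fun h => hn h.1), if_neg (fun h => hn h.1), h0,
                hf1]
              omega
            · rw [if_neg hv, if_neg (fun h => h0 h.2), if_pos ⟨⟨hv, h01⟩, h0⟩, if_neg (fun h => hn h.1), if_neg (fun h => hn h.1),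
                hm1 _ h0]
              omega
          · push Not at h01
            have hn : ¬ (v 0 = 0 ∨ v 1 = 0) := fun h => h.elim h01.1 h01.2
            rw [t2 v h01.1 h01.2]
            by_cases h0 : v ⬝ᵥ l0 = 0
            · rw [if_neg hv, if_neg (fun h => hn h.1.2), if_neg (fun h => hn h.1.2), if_pos ⟨h01, h0⟩, if_neg (fun h => h.2 h0), h0,
                hf2]
              omega
            · rw [if_neg hv, if_neg (fun h => hn h.1.2), if_neg (fun h => hn h.1.2), if_neg (fun h => h0 h.2), if_pos ⟨h01, h0⟩,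
                hm2 _ h0]
              omega
      simp_rw [h2] at h1
      rw [Finset.sum_add_distrib, Finset.sum_add_distrib, Finset.sum_add_distrib, Finset.sum_add_distrib,
        ← Finset.mul_sum, ← Finset.mul_sum, ← Finset.mul_sum, ← Finset.mul_sum, ← Finset.card_filter, ← Finset.card_filter,
        ← Finset.card_filter, ← Finset.card_filter, Finset.sum_ite_eq', if_pos (Finset.mem_univ _)] at h1
      omega
    have hne10 : comb (fun b : Fin 2 => (Pi.single b 1 : Fin 2 → ZMod 7)) ![1, 0] ≠ 0 := by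
      rw [comb_single]; exact ne10
    have hne11 : comb (fun b : Fin 2 => (Pi.single b 1 : Fin 2 → ZMod 7)) ![1, 1] ≠ 0 := by
      rw [comb_single]; exact ne11
    have fin : Mct chevE7 X (![1, 0] : Fin 2 → ZMod 7) 0 = 12 → (∀ j, j ≠ 0 → Mct chevE7 X (![1, 0] : Fin 2 → ZMod 7) j = 19) →
        Mct chevE7 X (![1, 1] : Fin 2 → ZMod 7) 0 = 24 → (∀ j, j ≠ 0 → Mct chevE7 X (![1, 1] : Fin 2 → ZMod 7) j = 17) → False := by
      intro hf1 hm1 hf2 hm2
      have hN2 : ∀ a b, N2 chevE7 7 (X 0) (X 1) a b = (Finset.univ.filter fun r => wgt chevE7 7 X r = ![a, b]).card := by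
        intro a b
        unfold N2
        refine congrArg Finset.card (Finset.ext fun r => ?_)
        rw [Finset.mem_filter, Finset.mem_filter]
        constructor
        · rintro ⟨-, h1, h2⟩
          refine ⟨Finset.mem_univ _, ?_⟩
          funext i
          fin_cases i
          · exact h1
          · exact h2
        · rintro ⟨-, h1⟩
          exact ⟨Finset.mem_univ _, congrFun h1 0, congrFun h1 1⟩
      have hN1 : ∀ a, N1 chevE7 7 (X 0) a = Mct chevE7 X (![1, 0] : Fin 2 → ZMod 7) a := by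
        intro a
        unfold N1 Mct
        refine congrArg Finset.card (Finset.ext fun r => ?_)
        rw [Finset.mem_filter, Finset.mem_filter]
        have : (![1, 0] : Fin 2 → ZMod 7) ⬝ᵥ wgt chevE7 7 X r = ((val chevE7 (X 0) r : ℤ) : ZMod 7) := by
          unfold dotProduct
          rw [Fin.sum_univ_two]
          simp [wgt]
        rw [this]
      refine no_pair7 (x := X 0) (y := X 1) (by rw [hN1, hf1]) (fun a ha => by rw [hN1, hm1 a ha]) ?_ ?_ ?_ ?_
      · rw [hN2]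
        have h1 := key 12 19 24 17 hf1 hm1 hf2 hm2 0
        rw [cnt7_0.1, cnt7_0.2.1, cnt7_0.2.2.1, cnt7_0.2.2.2] at h1
        rw [eq00]
        omega
      · intro k hk
        rw [hN2]
        have h1 := key 12 19 24 17 hf1 hm1 hf2 hm2 ![0, k]
        have h2 := cnt7_1 ![0, k] (Or.inl ⟨rfl, hk⟩)
        rw [h2.1, h2.2.1, h2.2.2.1, h2.2.2.2] at h1
        omega
      · rw [hN2]
        have h1 := key 12 19 24 17 hf1 hm1 hf2 hm2 ![1, 0]
        have h2 := cnt7_1 ![1, 0] (Or.inr ⟨rfl, rfl⟩)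
        rw [h2.1, h2.2.1, h2.2.2.1, h2.2.2.2] at h1
        omega
      · intro k hk
        rw [hN2]
        have h1 := key 12 19 24 17 hf1 hm1 hf2 hm2 ![1, k]
        have h2 := cnt7_2 ![1, k] ⟨rfl, hk⟩
        rw [h2.1, h2.2.1, h2.2.2.1, h2.2.2.2] at h1
        omega
    rcases hcl hX (![1, 0] : Fin 2 → ZMod 7) hne10 with ⟨h1, h1'⟩ | ⟨h1, h1'⟩ | ⟨h1, h1'⟩ <;>
      rcases hcl hX (![1, 1] : Fin 2 → ZMod 7) hne11 with ⟨h2, h2'⟩ | ⟨h2, h2'⟩ | ⟨h2, h2'⟩ <;>
      first
      | exact fin h1 h1' h2 h2'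
      | (have h3 := key _ _ _ _ h1 h1' h2 h2' 0
         rw [cnt7_0.1, cnt7_0.2.1, cnt7_0.2.2.1, cnt7_0.2.2.2] at h3
         omega)
  · -- not in the torus
    have hcard : Nat.card (be.chi inE7).ker = 7 := by
      have h1 := (be.chi inE7).ker.card_mul_index
      rw [h, Nat.card_congr Multiplicative.toAdd, Nat.card_eq_fintype_card (α := Fin 2 → ZMod 7), Fintype.card_fun,
        ZMod.card, Fintype.card_fin] at h1
      omega
    have hex : ∃ v3, v3 ∉ (be.chi inE7).ker := by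
      by_contra hcon
      push Not at hcon
      have : (be.chi inE7).ker = ⊤ := by
        rw [eq_top_iff]
        intro v _
        exact hcon v
      rw [this, Subgroup.index_top] at h
      omega
    obtain ⟨v3, hv3⟩ := hex
    have hex1 : ∃ u1 ∈ (be.chi inE7).ker, u1 ≠ 1 := by
      by_contra hcon
      push Not at hcon
      have : (be.chi inE7).ker = ⊥ := by
        rw [eq_bot_iff]
        intro v hv
        exact Subgroup.mem_bot.2 (hcon v hv)
      rw [this, Subgroup.card_bot] at hcard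
      omega
    obtain ⟨u1, hu1, hu1n⟩ := hex1
    obtain ⟨X, hX⟩ := exists_weights inE7 slE7 be hζ (fun _ : Fin 1 => u1.toAdd) (fun b => by
      rw [← be.mem_ker inE7]
      exact hu1)
    have hc1 : comb (fun _ : Fin 1 => u1.toAdd) ![1] = u1.toAdd := by
      unfold comb
      rw [Fin.sum_univ_one]
      show (1 : ZMod 7) • u1.toAdd = u1.toAdd
      rw [one_smul]
    have hne : comb (fun _ : Fin 1 => u1.toAdd) ![1] ≠ 0 := by
      rw [hc1]
      intro h1
      exact hu1n (Multiplicative.toAdd.injective h1)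
    have hinv := be.wgt_inv inE7 hζ hX v3
    have hmod := fix_mod (be.chi_pow inE7 v3) (Finset.univ.filter fun r => (![1] : Fin 1 → ZMod 7) ⬝ᵥ wgt chevE7 7 X r = 1)
      (fun r hr => by
        rw [Finset.mem_filter] at hr ⊢
        exact ⟨Finset.mem_univ _, by rw [hinv]; exact hr.2⟩)
    have hempty : ((Finset.univ.filter fun r => (![1] : Fin 1 → ZMod 7) ⬝ᵥ wgt chevE7 7 X r = 1).filter
        fun r => be.chi inE7 v3 r = r) = ∅ := by
      rw [Finset.filter_eq_empty_iff]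
      intro r _ hr
      exact hv3 (fix_seven (be.chi_range inE7 v3) (be.chi_pow inE7 v3) hr)
    rw [hempty, Finset.card_empty] at hmod
    have hM : Mct chevE7 X ![1] 1 % 7 = 0 := hmod
    rcases hcl hX ![1] hne with ⟨-, h1⟩ | ⟨-, h1⟩ | ⟨-, h1⟩
    · rw [h1 1 one_ne_zero] at hM
      omega
    · rw [h1 1 one_ne_zero] at hM
      omega
    · rw [h1 1 one_ne_zero] at hM
      omega

end Cfsg.Agent.H186
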