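import Cfsg.Agent.H186.ExcCount

/-!
# The weights of an elementary abelian group in the torus (helper186)
-/

set_option autoImplicit false

namespace Cfsg.Agent.H186

open Cfsg.Lie Cfsg.Agent.ChevalleyStructure Cfsg.Agent.ChevalleyStructure.Elts
  Cfsg.Agent.ChevalleyStructure.RootCombGood Cfsg.Agent.ChevalleyStructure.RootWord
  Cfsg.Agent.ChevalleyStructure.RootComb Cfsg.Agent.ChevalleyStructure.NPerm Cfsg.Agent.H190 Equiv

universe u

section E

variable {K : Type u} [Field K] {ℓ : ℕ} [NeZero ℓ]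

/-- `ζ ^ a` for `a` modulo `ℓ` -/
def zE (ζ : K) (a : ZMod ℓ) : K := ζ ^ a.val

theorem zE_zero (ζ : K) : zE ζ (0 : ZMod ℓ) = 1 := by
  unfold zE
  rw [ZMod.val_zero, pow_zero]

theorem zE_add {ζ : K} (h : ζ ^ ℓ = 1) (a b : ZMod ℓ) : zE ζ (a + b) = zE ζ a * zE ζ b := by
  unfold zE
  rw [ZMod.val_add, ← pow_eq_pow_mod _ h, pow_add]

theorem zE_natCast {ζ : K} (h : ζ ^ ℓ = 1) (n : ℕ) : zE ζ ((n : ℕ) : ZMod ℓ) = ζ ^ n := by
  unfold zE
  rw [ZMod.val_natCast, ← pow_eq_pow_mod _ h]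

theorem zE_intCast {ζ : K} (h : ζ ^ ℓ = 1) (n : ℤ) : zE ζ ((n : ℤ) : ZMod ℓ) = ζ ^ n := by
  have hζ : ζ ≠ 0 := by
    rintro rfl
    rw [zero_pow (NeZero.ne ℓ)] at h
    exact zero_ne_one h
  obtain ⟨m, rfl | rfl⟩ := Int.eq_nat_or_neg n
  · rw [Int.cast_natCast, zE_natCast h, zpow_natCast]
  · rw [Int.cast_neg, Int.cast_natCast, zpow_neg, zpow_natCast, ← zE_natCast h]
    have h1 := zE_add h (-((m : ℕ) : ZMod ℓ)) ((m : ℕ) : ZMod ℓ)
    rw [neg_add_cancel, zE_zero] at h1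
    exact eq_inv_of_mul_eq_one_left h1.symm

theorem zE_injective {ζ : K} (h : IsPrimitiveRoot ζ ℓ) : Function.Injective (zE (ℓ := ℓ) ζ) := by
  intro a b hab
  exact ZMod.val_injective ℓ (h.pow_inj (ZMod.val_lt a) (ZMod.val_lt b) hab)

theorem zE_mul {ζ : K} (h : ζ ^ ℓ = 1) (a b : ZMod ℓ) : zE ζ (a * b) = (zE ζ b) ^ a.val := by
  conv_lhs => rw [← ZMod.natCast_zmod_val a]
  generalize a.val = n
  induction n with
  | zero => rw [Nat.cast_zero, zero_mul, zE_zero, pow_zero]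
  | succ n ih => rw [Nat.cast_succ, add_mul, one_mul, zE_add h, ih, pow_succ]

end E

theorem ent_pow {D : ChevalleyDatum} (hD : InList D) {F : Type u} [Field F] {t : GL D.Idx F}
    (ht : t ∈ D.diagonalSubgroup F) (r : Fin D.nroots) (n : ℕ) : ent (t ^ n) r = ent t r ^ n := by
  induction n with
  | zero =>
    rw [pow_zero, pow_zero]
    show ((1 : GL D.Idx F) : Matrix D.Idx D.Idx F) (Sum.inr r) (Sum.inr r) = 1
    rw [Units.val_one, Matrix.one_apply_eq]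
  | succ n ih => rw [pow_succ, pow_succ, ent_mul hD (pow_mem ht n) ht, ih]

theorem ent_one {D : ChevalleyDatum} {F : Type u} [Field F] (r : Fin D.nroots) : ent (1 : GL D.Idx F) r = 1 := by
  show ((1 : GL D.Idx F) : Matrix D.Idx D.Idx F) (Sum.inr r) (Sum.inr r) = 1
  rw [Units.val_one, Matrix.one_apply_eq]

section W

variable {D : ChevalleyDatum} {K : Type u} [Field K] {k ℓ m : ℕ} [NeZero ℓ]

/-- the linear combination of the vectors `u b` -/
def comb (u : Fin m → Fin k → ZMod ℓ) (c : Fin m → ZMod ℓ) : Fin k → ZMod ℓ := ∑ b, c b • u b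

/-- the weight of the root `r` -/
def wgt (D : ChevalleyDatum) (ℓ : ℕ) {m : ℕ} (X : Fin m → ℕ → ℤ) (r : Fin D.nroots) : Fin m → ZMod ℓ :=
  fun b => ((val D (X b) r : ℤ) : ZMod ℓ)

/-- the combined vector -/
def cvec (X : Fin m → ℕ → ℤ) (c : Fin m → ZMod ℓ) : ℕ → ℤ := fun j => ∑ b, ((c b).val : ℤ) * X b j

theorem val_cvec (X : Fin m → ℕ → ℤ) (c : Fin m → ZMod ℓ) (r : Fin D.nroots) :
    ((val D (cvec X c) r : ℤ) : ZMod ℓ) = c ⬝ᵥ wgt D ℓ X r := by
  have h1 : val D (cvec X c) r = ∑ b, ((c b).val : ℤ) * val D (X b) r := by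
    unfold val cvec
    simp_rw [Finset.mul_sum]
    rw [Finset.sum_comm]
    refine Finset.sum_congr rfl fun b _ => Finset.sum_congr rfl fun j _ => by ring
  rw [h1]
  unfold dotProduct wgt
  push_cast
  refine Finset.sum_congr rfl fun b _ => ?_
  rw [ZMod.natCast_zmod_val]

/-- **the weights** of the elements `σ (∑ c_b u_b)` -/
theorem exists_weights (hD : InList D) (hsl : SL D) (be : BlockEmb D K k ℓ) {ζ : K} (hζ : IsPrimitiveRoot ζ ℓ)
    (u : Fin m → Fin k → ZMod ℓ) (hu : ∀ b, be.σ (Multiplicative.ofAdd (u b)) ∈ D.diagonalSubgroup K) :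
    ∃ X : Fin m → ℕ → ℤ, ∀ c, be.σ (Multiplicative.ofAdd (comb u c)) ∈ D.diagonalSubgroup K ∧
      ∀ r, ent (be.σ (Multiplicative.ofAdd (comb u c))) r = zE ζ (c ⬝ᵥ wgt D ℓ X r) := by
  classical
  have hl : 0 < ℓ := Nat.pos_of_ne_zero (NeZero.ne ℓ)
  have hpow : ∀ b, be.σ (Multiplicative.ofAdd (u b)) ^ ℓ = 1 := by
    intro b
    rw [← map_pow, ← ofAdd_nsmul]
    have : ℓ • u b = 0 := by
      funext i
      rw [Pi.smul_apply, Pi.zero_apply, nsmul_eq_mul, ZMod.natCast_self, zero_mul]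
    rw [this, ofAdd_zero, map_one]
  choose X hX using fun b => exists_vec hD hsl hl hζ (hu b) (hpow b)
  refine ⟨X, fun c => ?_⟩
  have key : ∀ S : Finset (Fin m), be.σ (Multiplicative.ofAdd (∑ b ∈ S, c b • u b)) ∈ D.diagonalSubgroup K ∧
      ∀ r, ent (be.σ (Multiplicative.ofAdd (∑ b ∈ S, c b • u b))) r = zE ζ (∑ b ∈ S, c b * wgt D ℓ X r b) := by
    intro S
    induction S using Finset.induction_on with
    | empty =>
      rw [Finset.sum_empty, ofAdd_zero, map_one]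
      exact ⟨Subgroup.one_mem _, fun r => by rw [Finset.sum_empty, zE_zero, ent_one]⟩
    | insert a S ha ih =>
      have e1 : be.σ (Multiplicative.ofAdd (∑ b ∈ insert a S, c b • u b)) =
          be.σ (Multiplicative.ofAdd (u a)) ^ (c a).val * be.σ (Multiplicative.ofAdd (∑ b ∈ S, c b • u b)) := by
        rw [Finset.sum_insert ha, ofAdd_add, map_mul, ← map_pow, ← ofAdd_nsmul]
        congr 3
        funext i
        rw [Pi.smul_apply, Pi.smul_apply, smul_eq_mul, nsmul_eq_mul, ZMod.natCast_zmod_val]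
      rw [e1]
      refine ⟨mul_mem (pow_mem (hu a) _) ih.1, fun r => ?_⟩
      rw [ent_mul hD (pow_mem (hu a) _) ih.1, ih.2 r, ent_pow hD (hu a), hX a r, Finset.sum_insert ha,
        zE_add hζ.pow_eq_one, zE_mul hζ.pow_eq_one]
      unfold wgt
      rw [zE_intCast hζ.pow_eq_one]
  exact key Finset.univ

/-- the number of roots with value `j` at `∑ c_b u_b` -/
def Mct (D : ChevalleyDatum) (X : Fin m → ℕ → ℤ) (c : Fin m → ZMod ℓ) (j : ZMod ℓ) : ℕ :=
  (Finset.univ.filter fun r : Fin D.nroots => c ⬝ᵥ wgt D ℓ X r = j).card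

theorem Mct_eq_N1 (X : Fin m → ℕ → ℤ) (c : Fin m → ZMod ℓ) (j : ZMod ℓ) : Mct D X c j = N1 D ℓ (cvec X c) j := by
  unfold Mct N1
  simp_rw [val_cvec]

theorem Mct_zero (X : Fin m → ℕ → ℤ) : Mct D X (0 : Fin m → ZMod ℓ) 0 = D.nroots := by
  unfold Mct
  simp

/-- conjugate elements have the same numbers -/
theorem Mct_conj (hD : InList D) (be : BlockEmb D K k ℓ) {ζ : K} (hζ : IsPrimitiveRoot ζ ℓ)
    {u : Fin m → Fin k → ZMod ℓ} {X : Fin m → ℕ → ℤ}
    (hX : ∀ c, be.σ (Multiplicative.ofAdd (comb u c)) ∈ D.diagonalSubgroup K ∧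
      ∀ r, ent (be.σ (Multiplicative.ofAdd (comb u c))) r = zE ζ (c ⬝ᵥ wgt D ℓ X r))
    {c c' : Fin m → ZMod ℓ} {ρ : Perm (Fin k × ZMod ℓ)} (h : ρ * trn k ℓ (comb u c) * ρ⁻¹ = trn k ℓ (comb u c'))
    (j : ZMod ℓ) : Mct D X c j = Mct D X c' j := by
  classical
  obtain ⟨g, hg⟩ := be.conj _ _ ρ h
  have h1 := ent_count hD (hX c).1 (hX c').1 hg (zE ζ j)
  unfold Mct
  simp_rw [(hX c).2, (hX c').2, (zE_injective hζ).eq_iff] at h1
  exact h1

theorem comb_smul (u : Fin m → Fin k → ZMod ℓ) (a : ZMod ℓ) (c : Fin m → ZMod ℓ) : comb u (a • c) = a • comb u c := by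
  unfold comb
  rw [Finset.smul_sum]
  refine Finset.sum_congr rfl fun b _ => ?_
  rw [Pi.smul_apply, smul_assoc]

/-- the elements are rational -/
theorem Mct_rational [hl : Fact ℓ.Prime] (hD : InList D) (be : BlockEmb D K k ℓ) {ζ : K} (hζ : IsPrimitiveRoot ζ ℓ)
    {u : Fin m → Fin k → ZMod ℓ} {X : Fin m → ℕ → ℤ}
    (hX : ∀ c, be.σ (Multiplicative.ofAdd (comb u c)) ∈ D.diagonalSubgroup K ∧
      ∀ r, ent (be.σ (Multiplicative.ofAdd (comb u c))) r = zE ζ (c ⬝ᵥ wgt D ℓ X r))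
    (c : Fin m → ZMod ℓ) {i j : ZMod ℓ} (hi : i ≠ 0) (hj : j ≠ 0) : Mct D X c i = Mct D X c j := by
  have ha : i / j ≠ 0 := div_ne_zero hi hj
  obtain ⟨ρ, hρ⟩ := exists_scl (k := k) (ℓ := ℓ) (v := comb u c) (w := comb u ((i / j) • c)) (by
    intro b
    rw [comb_smul, Pi.smul_apply, smul_eq_mul, mul_eq_zero]
    exact ⟨fun h => Or.inr h, fun h => h.resolve_left ha⟩)
  rw [Mct_conj hD be hζ hX hρ i]
  unfold Mct
  congr 1
  ext r
  rw [Finset.mem_filter, Finset.mem_filter, smul_dotProduct, smul_eq_mul]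
  constructor
  · rintro ⟨-, h⟩
    refine ⟨Finset.mem_univ _, ?_⟩
    field_simp at h
    exact h
  · rintro ⟨-, h⟩
    refine ⟨Finset.mem_univ _, ?_⟩
    rw [h]
    field_simp

theorem Mct_eq_all (hD : InList D) (be : BlockEmb D K k ℓ) {ζ : K}
    {u : Fin m → Fin k → ZMod ℓ} {X : Fin m → ℕ → ℤ}
    (hX : ∀ c, be.σ (Multiplicative.ofAdd (comb u c)) ∈ D.diagonalSubgroup K ∧
      ∀ r, ent (be.σ (Multiplicative.ofAdd (comb u c))) r = zE ζ (c ⬝ᵥ wgt D ℓ X r))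
    (c : Fin m → ZMod ℓ) (h : Mct D X c 0 = D.nroots) : comb u c = 0 := by
  have h1 : ∀ r : Fin D.nroots, c ⬝ᵥ wgt D ℓ X r = 0 := by
    intro r
    unfold Mct at h
    have h2 : (Finset.univ.filter fun r : Fin D.nroots => c ⬝ᵥ wgt D ℓ X r = 0) = Finset.univ := by
      apply Finset.eq_univ_of_card
      rw [h, Fintype.card_fin]
    have h3 : r ∈ (Finset.univ.filter fun r : Fin D.nroots => c ⬝ᵥ wgt D ℓ X r = 0) := by
      rw [h2]; exact Finset.mem_univ _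
    exact (Finset.mem_filter.1 h3).2
  have h2 : be.σ (Multiplicative.ofAdd (comb u c)) = 1 := by
    apply torus_ext hD (hX c).1 (Subgroup.one_mem _)
    intro r
    rw [(hX c).2, h1, zE_zero, ent_one]
  have h3 := be.inj (h2.trans (map_one be.σ).symm)
  exact h3

end W

end Cfsg.Agent.H186
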