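import Cfsg.Agent.H186.ExcWeights
import Cfsg.Agent.H186.ExcPair7
import Cfsg.Agent.S1039
import Cfsg.Agent.S1093

/-!
# The Weyl group acting on the roots (helper186)
-/

set_option autoImplicit false

namespace Cfsg.Agent.H186

open Cfsg.Lie Cfsg.Agent.ChevalleyStructure Cfsg.Agent.ChevalleyStructure.Elts
  Cfsg.Agent.ChevalleyStructure.RootCombGood Cfsg.Agent.ChevalleyStructure.RootWord
  Cfsg.Agent.ChevalleyStructure.RootComb Cfsg.Agent.ChevalleyStructure.NPerm Cfsg.Agent.H190 Equiv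

universe u

variable {D : ChevalleyDatum}

/-- the permutation is given by a word in the simple reflections -/
def IsW (D : ChevalleyDatum) (π : Perm (Fin D.nroots)) : Prop :=
  ∃ w : List ℕ, (∀ a ∈ w, a < D.rank) ∧ ∀ r, ((π r : Fin D.nroots) : ℕ) = wact D w r

theorem isW_permHom (hD : InList D) {F : Type u} [Field F] (n : ↥(D.monomialSubgroup F)) : IsW D (permHom hD F n) := by
  have G := good_of_mem hD
  have h : permHom hD F n ∈ (permHom hD F).range := ⟨n, rfl⟩
  rw [range_permHom hD F] at h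
  generalize permHom hD F n = π at h
  induction h using Subgroup.closure_induction with
  | mem x hx =>
    obtain ⟨i, rfl⟩ := hx
    refine ⟨[i], by simp, fun r => ?_⟩
    rw [permHom_nG hD i.2 _ (coe_nG hD _ _)]
    rfl
  | one => exact ⟨[], by simp, fun r => rfl⟩
  | mul x y _ _ hx hy =>
    obtain ⟨v, hv, hv'⟩ := hx
    obtain ⟨w, hw, hw'⟩ := hy
    refine ⟨v ++ w, ?_, fun r => ?_⟩
    · intro a ha
      rcases List.mem_append.1 ha with h | h
      · exact hv a h
      · exact hw a h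
    · rw [wact_append, ← hw', ← hv']
      rfl
  | inv x _ hx =>
    obtain ⟨w, hw, hw'⟩ := hx
    refine ⟨w.reverse, fun a ha => hw a (List.mem_reverse.1 ha), fun r => ?_⟩
    have h1 := hw' (x⁻¹ r)
    have h2 : x (x⁻¹ r) = r := Equiv.apply_symm_apply x r
    rw [h2] at h1
    rw [h1, wact_reverse G hw (x⁻¹ r).2]

theorem IsW.car (G : Good D) {π : Perm (Fin D.nroots)} (h : IsW D π) (r s : Fin D.nroots) :
    car D (π r) (π s) = car D r s := by
  obtain ⟨w, hw, hw'⟩ := h
  rw [hw', hw', car_wact G hw r.2 s.2]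

theorem IsW.pow {π : Perm (Fin D.nroots)} (h : IsW D π) (n : ℕ) : IsW D (π ^ n) := by
  induction n with
  | zero => exact ⟨[], by simp, fun r => rfl⟩
  | succ n ih =>
    obtain ⟨v, hv, hv'⟩ := ih
    obtain ⟨w, hw, hw'⟩ := h
    refine ⟨v ++ w, ?_, fun r => ?_⟩
    · intro a ha
      rcases List.mem_append.1 ha with h | h
      · exact hv a h
      · exact hw a h
    · rw [wact_append, ← hw', ← hv', pow_succ]
      rfl

theorem IsW.lin (G : Good D) {π : Perm (Fin D.nroots)} (h : IsW D π) {u m r : Fin D.nroots} {c : ℤ}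
    (hu : ∀ j < D.rank, co D u j = co D m j - c * co D r j) {j : ℕ} (hj : j < D.rank) :
    co D (π u) j = co D (π m) j - c * co D (π r) j := by
  obtain ⟨w, hw, hw'⟩ := h
  rw [hw', hw', hw', co_wact G hw u.2 hj, co_wact G hw m.2 hj, co_wact G hw r.2 hj, Finset.mul_sum,
    ← Finset.sum_sub_distrib]
  refine Finset.sum_congr rfl fun k hk => ?_
  rw [hu k (Finset.mem_range.1 hk)]
  ring

theorem IsW.neg (G : Good D) {π : Perm (Fin D.nroots)} (h : IsW D π) (r : Fin D.nroots) :
    π (negPerm G r) = negPerm G (π r) := by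
  obtain ⟨w, hw, hw'⟩ := h
  apply Fin.ext
  rw [hw', negPerm_apply, negPerm_apply, hw', wact_neg G hw r.2]

theorem ent_perm (hD : InList D) {F : Type u} [Field F] (n : ↥(D.monomialSubgroup F)) {t : GL D.Idx F}
    (ht : t ∈ D.diagonalSubgroup F) (h : (n : GL D.Idx F) * t * (n : GL D.Idx F)⁻¹ = t) (r : Fin D.nroots) :
    ent t (permHom hD F n r) = ent t r := by
  have h1 := ent_conj hD n ht r
  rwa [h] at h1

/-- the order of the Weyl group -/
theorem card_range_E7 {F : Type u} [Field F] : Nat.card (permHom (D := chevE7) (by simp [InList]) F).range = 2903040 := by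
  obtain ⟨φ, h1, h2, -⟩ := Cfsg.Agent.S1039.result (F := F) (chevE7, ⟨7, CoxeterMatrix.E₇⟩) (by simp)
  have hw := Cfsg.Agent.S1093.result (⟨7, CoxeterMatrix.E₇⟩, 2903040) (by simp)
  rw [← Subgroup.index_ker, ker_permHom, ← h2, Subgroup.index_ker, MonoidHom.range_eq_top.2 h1, Subgroup.card_top]
  exact hw

/-- words taking the first simple root to the others -/
def wordE7 : ℕ → List ℕ
  | 0 => []
  | 1 => [3, 1, 2, 3, 0, 2]
  | 2 => [0, 2]
  | 3 => [2, 3, 0, 2]
  | 4 => [3, 4, 2, 3, 0, 2]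
  | 5 => [4, 5, 3, 4, 2, 3, 0, 2]
  | _ => [5, 6, 4, 5, 3, 4, 2, 3, 0, 2]

theorem wordE7_spec : ∀ i < chevE7.rank, (∀ a ∈ wordE7 i, a < chevE7.rank) ∧
    wact chevE7 (wordE7 i) (chevE7.simple 0) = chevE7.simple i := by
  decide +kernel

theorem exists_word0 {r : ℕ} (hr : r < chevE7.nroots) :
    ∃ w : List ℕ, (∀ a ∈ w, a < chevE7.rank) ∧ wact chevE7 w (chevE7.simple 0) = r := by
  obtain ⟨i, hi, w, hw, h⟩ := exists_word goodE7 hr
  obtain ⟨h1, h2⟩ := wordE7_spec i hi
  refine ⟨w ++ wordE7 i, ?_, by rw [wact_append, h2, h]⟩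
  intro a ha
  rcases List.mem_append.1 ha with h' | h'
  · exact hw a h'
  · exact h1 a h'

theorem exists_range_word (hD : InList D) {F : Type u} [Field F] {w : List ℕ} (hw : ∀ a ∈ w, a < D.rank) :
    ∃ g ∈ (permHom hD F).range, ∀ r, ((g r : Fin D.nroots) : ℕ) = wact D w r := by
  induction w with
  | nil => exact ⟨1, Subgroup.one_mem _, fun r => rfl⟩
  | cons i w ih =>
    obtain ⟨g, hg, h⟩ := ih (fun a ha => hw a (by simp [ha]))
    have hi : i < D.rank := hw i (by simp)
    refine ⟨permHom hD F ⟨nG hD (D.simple i) 1, nG_simple_mem hD F hi⟩ * g, mul_mem ⟨_, rfl⟩ hg, fun r => ?_⟩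
    rw [wact_cons, ← h r]
    exact permHom_nG hD hi _ (coe_nG hD _ _) (g r)

/-- an element of order dividing `7` of the Weyl group of `E₇` fixing a root is trivial -/
theorem fix_seven {F : Type u} [Field F] {π : Perm (Fin chevE7.nroots)}
    (hπ : π ∈ (permHom (D := chevE7) (by simp [InList]) F).range) (h7 : π ^ 7 = 1) {r : Fin chevE7.nroots} (hr : π r = r) :
    π = 1 := by
  have hD : InList chevE7 := by simp [InList]
  set W := (permHom hD F).range with hW
  have hcard : Nat.card W = 2903040 := card_range_E7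
  have horb : MulAction.orbit W r = Set.univ := by
    rw [Set.eq_univ_iff_forall]
    -- both are in the orbit of the first simple root
    let α : Fin chevE7.nroots := ⟨chevE7.simple 0, goodE7.simple_lt (by decide)⟩
    have h2 : ∀ s : Fin chevE7.nroots, ∃ g : W, g • α = s := by
      intro s
      obtain ⟨w, hw, hws⟩ := exists_word0 s.2
      obtain ⟨g, hg, h⟩ := exists_range_word hD (F := F) hw
      exact ⟨⟨g, hg⟩, Fin.ext ((h α).trans hws)⟩
    intro s
    obtain ⟨g, hg⟩ := h2 s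
    obtain ⟨g', hg'⟩ := h2 r
    refine ⟨g * g'⁻¹, ?_⟩
    show (g * g'⁻¹) • r = s
    rw [← hg, ← hg', mul_smul, inv_smul_smul]
  have h3 : Nat.card (MulAction.orbit W r) = 126 := by
    rw [horb, Nat.card_univ, Nat.card_eq_fintype_card, Fintype.card_fin]
    rfl
  have h4 : Nat.card (MulAction.stabilizer W r) = 23040 := by
    have h5 : Nat.card (MulAction.orbit W r) * Nat.card (MulAction.stabilizer W r) = Nat.card W := by
      rw [← Nat.card_congr (MulAction.orbitProdStabilizerEquivGroup W r), Nat.card_prod]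
    rw [h3, hcard] at h5
    omega
  have hmem : (⟨π, hπ⟩ : W) ∈ MulAction.stabilizer W r := hr
  have h5 : orderOf (⟨⟨π, hπ⟩, hmem⟩ : MulAction.stabilizer W r) ∣ 23040 := h4 ▸ orderOf_dvd_natCard _
  rw [Subgroup.orderOf_mk, Subgroup.orderOf_mk] at h5
  have h6 := Nat.dvd_gcd (orderOf_dvd_of_pow_eq_one h7) h5
  have h8 : Nat.gcd 7 23040 = 1 := by norm_num
  rw [h8, Nat.dvd_one, orderOf_eq_one_iff] at h6
  exact h6

end Cfsg.Agent.H186
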