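import Cfsg.Agent.H186.MinCover
import Cfsg.Agent.S0892

/-!
# Minimal covers of alternating groups: odd primes do not divide the kernel (helper186)

* `MinCover.not_dvd_card_ker` : `φ : H →* A_n` a minimal cover, `n ≥ 8`, `ℓ` odd, Sylow `ℓ`-subgroup of the kernel
  central: then `ℓ ∤ |ker φ|`;
* `exists_section_hom` : `ℓ`-subgroups of `A` lift to `H`, with their normalisers;
* `conj_of_conj` : if `ℓ ∤ |ker φ|`, two `ℓ`-elements of `H` with conjugate images are conjugate.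
-/

set_option autoImplicit false

namespace Cfsg.Agent.H186

open Subgroup
open scoped commutatorElement

universe u v

theorem MinCover.not_dvd_card_ker {H : Type u} [Group H] [Finite H] {n : ℕ} (hn : 8 ≤ n)
    {φ : H →* alternatingGroup (Fin n)} (h : MinCover φ) (hA : commutator (alternatingGroup (Fin n)) = ⊤)
    {ℓ : ℕ} [hl : Fact ℓ.Prime] (hodd : ℓ ≠ 2) (Q : Sylow ℓ φ.ker)
    (hQ : (Q : Subgroup φ.ker).map φ.ker.subtype ≤ center H) : ¬ ℓ ∣ Nat.card φ.ker := by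
  have hcen : ∀ x ∈ (Q : Subgroup φ.ker), ∀ g : φ.ker, g * x = x * g := by
    intro x hx g
    have h1 := hQ ⟨x, hx, rfl⟩
    rw [mem_center_iff] at h1
    exact Subtype.ext (h1 g)
  have hP : normalizer ((Q : Subgroup φ.ker) : Set φ.ker) ≤ centralizer ((Q : Subgroup φ.ker) : Set φ.ker) := by
    intro g _
    rw [mem_centralizer_iff]
    intro x hx
    exact (hcen x hx g).symm
  set N := (MonoidHom.transferSylow Q hP).ker with hN
  have hcompl : N.IsComplement' (Q : Subgroup φ.ker) := MonoidHom.ker_transferSylow_isComplement' Q hP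
  have hNl : ¬ ℓ ∣ Nat.card N := MonoidHom.not_dvd_card_ker_transferSylow Q hP
  -- membership in `N`
  have hmem : ∀ x : φ.ker, x ∈ N ↔ (orderOf x).Coprime ℓ := by
    intro x
    constructor
    · intro hx
      have h1 : orderOf x ∣ Nat.card N := by
        have := orderOf_dvd_natCard (⟨x, hx⟩ : N)
        rwa [Subgroup.orderOf_mk] at this
      rw [Nat.coprime_comm, Nat.Prime.coprime_iff_not_dvd hl.out]
      exact fun hd => hNl (hd.trans h1)
    · intro hx
      rw [hN, MonoidHom.mem_ker]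
      have h1 : orderOf (MonoidHom.transferSylow Q hP x) ∣ orderOf x := orderOf_map_dvd _ _
      obtain ⟨k, hk⟩ := IsPGroup.iff_orderOf.1 Q.isPGroup' (MonoidHom.transferSylow Q hP x)
      have h2 : (ℓ ^ k) ∣ orderOf x := hk ▸ h1
      have h3 : ℓ ^ k = 1 := Nat.eq_one_of_dvd_coprimes (hx.pow_right k) h2 (dvd_refl _)
      rw [← orderOf_eq_one_iff, hk, h3]
  let N' : Subgroup H := N.map φ.ker.subtype
  have hN'n : N'.Normal := by
    refine ⟨?_⟩
    rintro _ ⟨x, hx, rfl⟩ g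
    have hk : g * (x : H) * g⁻¹ ∈ φ.ker := (MonoidHom.normal_ker φ).conj_mem x x.2 g
    refine ⟨⟨g * (x : H) * g⁻¹, hk⟩, ?_, rfl⟩
    have hx' := (hmem x).1 hx
    refine (hmem _).2 ?_
    have : orderOf (⟨g * (x : H) * g⁻¹, hk⟩ : φ.ker) = orderOf x := by
      rw [Subgroup.orderOf_mk, ← Subgroup.orderOf_coe x]
      exact (orderOf_injective (MulAut.conj g).toMonoidHom (MulAut.conj g).injective (x : H))
    rw [this]
    exact hx'
  have hN'le : N' ≤ φ.ker := map_subtype_le _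
  let π := QuotientGroup.mk' N'
  have hπ : Function.Surjective π := QuotientGroup.mk'_surjective N'
  let Z : Subgroup (H ⧸ N') := φ.ker.map π
  have hZn : Z.Normal := (MonoidHom.normal_ker φ).map π hπ
  have hZQ : ∀ z ∈ Z, ∃ q ∈ (Q : Subgroup φ.ker), π (q : H) = z := by
    rintro _ ⟨x, hx, rfl⟩
    have h1 : (⟨x, hx⟩ : φ.ker) ∈ N ⊔ (Q : Subgroup φ.ker) := by
      rw [hcompl.sup_eq_top]; exact mem_top _
    obtain ⟨y, hy, q, hq, e⟩ := mem_sup_of_normal_left.1 h1
    refine ⟨q, hq, ?_⟩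
    have h2 : x = (y : H) * (q : H) := congrArg Subtype.val e.symm
    have h3 : π (y : H) = 1 := (QuotientGroup.eq_one_iff _).2 ⟨y, hy, rfl⟩
    rw [h2, map_mul, h3, one_mul]
  have hZc : Z ≤ center (H ⧸ N') := by
    intro z hz
    obtain ⟨q, hq, rfl⟩ := hZQ z hz
    rw [mem_center_iff]
    intro g
    obtain ⟨g, rfl⟩ := hπ g
    have h1 := hQ ⟨q, hq, rfl⟩
    rw [mem_center_iff] at h1
    rw [← map_mul, ← map_mul]
    exact congrArg π (h1 g)
  have hH := h.perfect hA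
  have hZd : Z ≤ commutator (H ⧸ N') := by
    have h1 : commutator (H ⧸ N') = ⊤ := by
      rw [_root_.commutator_def, ← MonoidHom.range_eq_top.2 hπ, MonoidHom.range_eq_map, ← map_commutator,
        ← _root_.commutator_def, hH]
    rw [h1]
    exact le_top
  let e : (H ⧸ N') ⧸ Z ≃* alternatingGroup (Fin n) :=
    (QuotientGroup.quotientQuotientEquivQuotient N' φ.ker hN'le).trans
      (QuotientGroup.quotientKerEquivOfSurjective φ h.surj)
  have hcard := Cfsg.Agent.S0892.result n (by omega) (by omega) (by omega) Z hZc hZd e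
  -- `Z` is an `ℓ`-group
  have hZp : IsPGroup ℓ Z := by
    intro z
    obtain ⟨q, hq, hqz⟩ := hZQ z z.2
    obtain ⟨k, hk⟩ := Q.isPGroup' ⟨q, hq⟩
    refine ⟨k, ?_⟩
    apply Subtype.ext
    rw [Subgroup.coe_pow, ← hqz, ← map_pow, Subgroup.coe_one]
    have h1 : (q : H) ^ ℓ ^ k = 1 := congrArg (fun x : (Q : Subgroup φ.ker) => ((x : φ.ker) : H)) hk
    rw [h1, map_one]
  obtain ⟨k, hk⟩ := IsPGroup.iff_card.1 hZp
  have hk0 : k = 0 := by
    by_contra hk0
    have h1 : ℓ ^ 1 ≤ ℓ ^ k := Nat.pow_le_pow_right hl.out.pos (by omega)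
    have h2 := hl.out.two_le
    rw [pow_one, ← hk] at h1
    omega
  rw [hk0, pow_zero] at hk
  have hZ1 : Z = ⊥ := card_eq_one.1 hk
  have hle : φ.ker ≤ N' := by
    have := (Subgroup.map_eq_bot_iff _).1 hZ1
    rwa [QuotientGroup.ker_mk'] at this
  have : Nat.card φ.ker = Nat.card N := by
    have h9 : Nat.card φ.ker = Nat.card N' := congrArg (fun S : Subgroup H => Nat.card S) (le_antisymm hle hN'le)
    rw [h9]
    exact Nat.card_congr (N.equivMapOfInjective φ.ker.subtype φ.ker.subtype_injective).toEquiv.symm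
  rw [this]
  exact hNl

section Lift

variable {H : Type u} {A : Type v} [Group H] [Group A] [Finite H] {φ : H →* A}

/-- `ℓ`-subgroups of `A` lift to `H` if `ℓ` does not divide the order of the kernel. -/
theorem exists_section_hom (hφ : Function.Surjective φ) {ℓ : ℕ} [hl : Fact ℓ.Prime] (hk : ¬ ℓ ∣ Nat.card φ.ker)
    (Q : Subgroup A) (hQ : IsPGroup ℓ Q) :
    ∃ s : Q →* H, (∀ q, φ (s q) = q) ∧ ∀ a : A, ∀ ha : (∀ q : A, q ∈ Q ↔ a * q * a⁻¹ ∈ Q),
      ∃ h : H, φ h = a ∧ ∀ q : Q, h * s q * h⁻¹ = s ⟨a * q * a⁻¹, (ha q).1 q.2⟩ := by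
  obtain ⟨S, hS, hSQ, hSn⟩ := Cfsg.Agent.H190.frattini_section φ hφ ℓ Q hQ
  -- `φ` is injective on `S`
  have hinj : ∀ s ∈ S, φ s = 1 → s = 1 := by
    intro s hs h1
    obtain ⟨k, hk'⟩ := IsPGroup.iff_orderOf.1 hS ⟨s, hs⟩
    rw [Subgroup.orderOf_mk] at hk'
    have h2 : orderOf s ∣ Nat.card φ.ker := by
      have := orderOf_dvd_natCard (⟨s, MonoidHom.mem_ker.2 h1⟩ : φ.ker)
      rwa [Subgroup.orderOf_mk] at this
    rw [hk'] at h2
    have hk0 : k = 0 := by
      by_contra hk0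
      exact hk ((dvd_pow_self ℓ hk0).trans h2)
    rw [hk0, pow_zero] at hk'
    exact orderOf_eq_one_iff.1 hk'
  have hinj2 : ∀ s ∈ S, ∀ t ∈ S, φ s = φ t → s = t := by
    intro s hs t ht hst
    rw [← mul_inv_eq_one]
    exact hinj _ (mul_mem hs (inv_mem ht)) (by rw [map_mul, map_inv, hst, mul_inv_cancel])
  have hex : ∀ q : Q, ∃ s ∈ S, φ s = q := by
    intro q
    have : (q : A) ∈ S.map φ := hSQ ▸ q.2
    exact this
  choose f hfS hf using hex
  let s : Q →* H :=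
    { toFun := f
      map_one' := hinj2 _ (hfS _) _ S.one_mem (by rw [hf, map_one]; rfl)
      map_mul' := fun a b => hinj2 _ (hfS _) _ (mul_mem (hfS a) (hfS b)) (by rw [hf, map_mul, hf, hf]; rfl) }
  refine ⟨s, hf, fun a ha => ?_⟩
  obtain ⟨h, hh, hhS⟩ := hSn a ha
  refine ⟨h, hh, fun q => ?_⟩
  refine hinj2 _ ((hhS _).1 (hfS q)) _ (hfS _) ?_
  rw [map_mul, map_mul, map_inv, hh]
  change a * φ (f q) * a⁻¹ = φ (f _)
  rw [hf, hf]

/-- two `ℓ`-elements of `H` with conjugate images in `A` are conjugate -/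
theorem conj_of_conj (hφ : Function.Surjective φ) {ℓ : ℕ} [hl : Fact ℓ.Prime] (hk : ¬ ℓ ∣ Nat.card φ.ker)
    {a b : H} (ha : ∃ k, a ^ ℓ ^ k = 1) (hb : ∃ k, b ^ ℓ ^ k = 1) (hab : IsConj (φ a) (φ b)) : IsConj a b := by
  classical
  obtain ⟨c, hc⟩ := isConj_iff.1 hab
  obtain ⟨g, rfl⟩ := hφ c
  -- reduce to equal images
  set a' := g * a * g⁻¹ with ha'
  have haa : IsConj a a' := isConj_iff.2 ⟨g, rfl⟩
  refine haa.trans ?_
  have hφa : φ a' = φ b := by rw [ha', map_mul, map_mul, map_inv, hc]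
  have ha2 : ∃ k, a' ^ ℓ ^ k = 1 := by
    obtain ⟨k, hk⟩ := ha
    refine ⟨k, ?_⟩
    rw [ha', conj_pow, hk, mul_one, mul_inv_cancel]
  clear_value a'
  -- the subgroup `L = φ⁻¹ ⟨φ b⟩`
  let L : Subgroup H := (zpowers (φ b)).comap φ
  have hbL : b ∈ L := mem_zpowers (φ b)
  have haL : a' ∈ L := by change φ a' ∈ zpowers (φ b); rw [hφa]; exact mem_zpowers _
  have hpow : ∀ x : H, (∃ k, x ^ ℓ ^ k = 1) → IsPGroup ℓ (zpowers x) := by
    rintro x ⟨k, hk⟩
    obtain ⟨j, _, hj⟩ := (Nat.dvd_prime_pow hl.out).1 (orderOf_dvd_of_pow_eq_one hk)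
    exact IsPGroup.of_card (n := j) (by rw [Nat.card_zpowers, hj])
  -- order of `x ∈ L` with `φ x = φ b`, `x` an `ℓ`-element
  have hinj : ∀ x : H, (∃ k, x ^ ℓ ^ k = 1) → ∀ y ∈ zpowers x, φ y = 1 → y = 1 := by
    intro x hx y hy h1
    obtain ⟨k, hk'⟩ := IsPGroup.iff_orderOf.1 (hpow x hx) ⟨y, hy⟩
    rw [Subgroup.orderOf_mk] at hk'
    have h2 : orderOf y ∣ Nat.card φ.ker := by
      have := orderOf_dvd_natCard (⟨y, MonoidHom.mem_ker.2 h1⟩ : φ.ker)
      rwa [Subgroup.orderOf_mk] at this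
    rw [hk'] at h2
    have hk0 : k = 0 := by
      by_contra hk0
      exact hk ((dvd_pow_self ℓ hk0).trans h2)
    rw [hk0, pow_zero] at hk'
    exact orderOf_eq_one_iff.1 hk'
  have hord : ∀ x : H, (∃ k, x ^ ℓ ^ k = 1) → orderOf (φ x) = orderOf x := by
    intro x hx
    apply Nat.dvd_antisymm (orderOf_map_dvd φ x)
    apply orderOf_dvd_of_pow_eq_one
    apply hinj x hx _ (Subgroup.pow_mem _ (mem_zpowers x) _)
    rw [map_pow, pow_orderOf_eq_one]
  have hidx : ∀ x : H, (∃ k, x ^ ℓ ^ k = 1) → φ x = φ b → ¬ ℓ ∣ ((zpowers x).subgroupOf L).index := by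
    intro x hx hxb hd
    have hxL : x ∈ L := by change φ x ∈ zpowers (φ b); rw [hxb]; exact mem_zpowers _
    have h1 : Nat.card ((zpowers x).subgroupOf L) * ((zpowers x).subgroupOf L).index = Nat.card L :=
      card_mul_index _
    have h2 : Nat.card ((zpowers x).subgroupOf L) = orderOf x := by
      rw [Nat.card_congr (subgroupOfEquivOfLe (zpowers_le.2 hxL)).toEquiv, Nat.card_zpowers]
    have h3 : Nat.card L = Nat.card φ.ker * orderOf x := by
      let ψ : L →* zpowers (φ b) := (φ.comp L.subtype).codRestrict _ (fun y => y.2)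
      have hψ : Function.Surjective ψ := by
        rintro ⟨y, hy⟩
        obtain ⟨z, rfl⟩ := hφ y
        exact ⟨⟨z, hy⟩, rfl⟩
      have h4 := card_mul_index ψ.ker
      rw [index_ker, MonoidHom.range_eq_top.2 hψ, card_top, Nat.card_zpowers] at h4
      have h5 : orderOf (φ b) = orderOf x := by rw [← hxb, hord x hx]
      rw [← h4, h5]
      congr 1
      refine Nat.card_congr ⟨fun y => ⟨(y : L), ?_⟩, fun y => ⟨⟨y, ?_⟩, ?_⟩, fun _ => rfl, fun _ => rfl⟩
      · have := y.2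
        rw [MonoidHom.mem_ker] at this ⊢
        exact congrArg Subtype.val this
      · change φ y ∈ zpowers (φ b)
        rw [MonoidHom.mem_ker.1 y.2]
        exact one_mem _
      · rw [MonoidHom.mem_ker]
        exact Subtype.ext (MonoidHom.mem_ker.1 y.2)
    rw [h2, h3, mul_comm (Nat.card φ.ker)] at h1
    have h5 := Nat.eq_of_mul_eq_mul_left (orderOf_pos x) h1
    exact hk (h5 ▸ hd)
  -- `⟨a'⟩` is conjugate into `⟨b⟩` in `L`
  obtain ⟨k, hk'⟩ := Cfsg.Agent.H190.exists_conj_le ((zpowers b).subgroupOf L) (hidx b hb rfl)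
    ((zpowers a').subgroupOf L) ((hpow a' ha2).comap_subtype)
  have h6 : (k : H) * a' * (k : H)⁻¹ ∈ zpowers b := hk' ⟨a', haL⟩ (mem_zpowers a')
  -- `φ k` is a power of `φ b`
  have h7 : φ ((k : H) * a' * (k : H)⁻¹) = φ b := by
    obtain ⟨j, hj⟩ := mem_zpowers_iff.1 (show φ (k : H) ∈ zpowers (φ b) from k.2)
    have h10 : Commute (φ b ^ j) (φ b) := (Commute.refl (φ b)).zpow_left j
    rw [map_mul, map_mul, map_inv, hφa, ← hj, h10.eq, mul_inv_cancel_right]
  have h8 : (k : H) * a' * (k : H)⁻¹ = b := by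
    rw [← mul_inv_eq_one]
    exact hinj b hb _ (mul_mem h6 (inv_mem (mem_zpowers b))) (by rw [map_mul, map_inv, h7, mul_inv_cancel])
  exact isConj_iff.2 ⟨k, h8⟩

end Lift

end Cfsg.Agent.H186
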